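import Cfsg.Agent.Sporadic.LeechWord

/-! Certificates for the 100 minimal vectors of a pair of type 3 vectors. -/

set_option autoImplicit false
set_option linter.style.longLine false

namespace Cfsg.Agent.LeechHS

open Cfsg.Agent.LeechWord

/-- The octad of the target of `wordH`. -/
def octH : ℕ := 460851
/-- The point of the target of `wordN`. -/
def posN : ℕ := 6

/-- A word fixing the pair, moving `(4, 4, 0²²)` to an octad vector. -/
def wordH : List St := [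
    .perm [0, 20, 8, 11, 5, 21, 10, 17, 18, 6, 16, 4, 9, 23, 3, 14, 2, 12, 1, 7, 22, 15, 19, 13],
    .xi,
    .perm [18, 2, 3, 1, 10, 15, 9, 11, 17, 12, 21, 13, 16, 22, 6, 14, 23, 4, 8, 5, 7, 20, 19, 0],
    .xi,
    .perm [0, 23, 20, 19, 1, 14, 11, 18, 21, 22, 8, 5, 7, 15, 6, 4, 2, 17, 3, 16, 12, 13, 9, 10]]

/-- A word fixing the pair, moving `(4, 4, 0²²)` to an odd vector. -/
def wordN : List St := [
    .perm [0, 22, 18, 4, 21, 15, 16, 12, 1, 10, 2, 5, 6, 13, 11, 3, 8, 9, 20, 17, 19, 14, 7, 23],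
    .xi,
    .perm [6, 2, 3, 1, 22, 5, 23, 15, 18, 7, 17, 12, 13, 16, 19, 9, 8, 20, 11, 14, 0, 21, 4, 10],
    .xi,
    .perm [0, 21, 4, 9, 7, 13, 18, 10, 11, 2, 16, 15, 3, 8, 22, 6, 19, 12, 5, 23, 17, 1, 20, 14],
    .xi,
    .perm [22, 2, 1, 3, 23, 16, 9, 14, 19, 7, 17, 15, 0, 8, 18, 6, 10, 12, 11, 20, 4, 13, 21, 5],
    .xi,
    .perm [0, 8, 10, 15, 3, 11, 12, 22, 16, 17, 9, 14, 7, 13, 21, 5, 6, 19, 2, 20, 18, 4, 1, 23]]

end Cfsg.Agent.LeechHS
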