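/-
Orbits on octads of the stabiliser of an octad and of one or two points.
-/
import Cfsg.Agent.M24Geo.Octad
import Cfsg.Agent.M24Geo.Small
import Cfsg.Agent.Sporadic.OctadSubData

set_option autoImplicit false

namespace Cfsg.Agent.OctadSub

open scoped Pointwise
open Cfsg Cfsg.Agent.M24Geo

/-- Required memberships of points. -/
def Meets (S : List (ℕ × Bool)) (g : Equiv.Perm GolayPt) (x : Finset GolayPt) : Prop :=
  ∀ e ∈ S, g (pt e.1) ∈ x ↔ e.2 = true

/-- The kernel-checked data of a configuration. -/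
structure Cert (S : List (ℕ × Bool)) (gens : List (List ℕ)) (roots : List ℕ) (T : OT) : Prop where
  check : T.check stepMask gens roots = true
  auts : gens.all autL = true
  fixO : (gens.all fun l => stepMask l octad0 octad0) = true
  fixPts : (gens.all fun l => S.all fun e => l.getD e.1 0 == e.1 && Nat.blt e.1 24) = true
  sep : (roots.map fun k => popc (k &&& octad0)).Nodup
  sorted : sortedB T.keys = true
  keys : T.keys.all (fun k => isWord 8 k && S.all fun e => k.testBit e.1 == e.2) = true
  all : ((wordList 8).filter fun k => S.all fun e => k.testBit e.1 == e.2).all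
    (fun k => (T.find k).isSome) = true

variable {S : List (ℕ × Bool)} {gens : List (List ℕ)} {roots : List ℕ} {T : OT}

theorem meets_one_iff (hlt : ∀ e ∈ S, e.1 < 24) {k : ℕ} :
    Meets S 1 (ofMask k) ↔ (S.all fun e => k.testBit e.1 == e.2) = true := by
  simp only [Meets, List.all_eq_true, beq_iff_eq, Equiv.Perm.one_apply]
  refine forall₂_congr fun e he => ?_
  have : pt e.1 ∈ ofMask k ↔ k.testBit e.1 = true := by
    simp [ofMask, idx_pt _ (hlt e he)]
  rw [this]
  exact Bool.eq_iff_iff.symm

theorem meets_smul (g h : Equiv.Perm GolayPt) (x : Finset GolayPt) :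
    Meets S (g * h) (g • x) ↔ Meets S h x := by
  simp only [Meets, Equiv.Perm.mul_apply]
  refine forall₂_congr fun e _ => ?_
  rw [← Equiv.Perm.smul_def g, Finset.smul_mem_smul_finset_iff]

theorem Cert.hX (C : Cert S gens roots T) (hlt : ∀ e ∈ S, e.1 < 24) :
    ∀ x, x ∈ octads → Meets S 1 x → ∃ k ∈ T.keys, ofMask k = x := by
  intro x hx hm
  obtain ⟨m, hm', rfl⟩ := mem_wordsOfWeight_iff.mp hx
  refine ⟨m, OT.mem_keys_of_isSome (List.all_eq_true.mp C.all m
    (List.mem_filter.mpr ⟨mem_wordList hm', (meets_one_iff hlt).mp hm⟩)), rfl⟩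

theorem Cert.count (C : Cert S gens roots T) (hlt : ∀ e ∈ S, e.1 < 24) {g : Equiv.Perm GolayPt}
    (hg : g ∈ M24) (v : ℕ) :
    {x : Finset GolayPt | x ∈ octads ∧ Meets S g x ∧ (g • ofMask octad0 ∩ x).card = v}.ncard =
      (T.keys.filter fun k => popc (k &&& octad0) == v).length := by
  have hset : {x : Finset GolayPt | x ∈ octads ∧ Meets S g x ∧ (g • ofMask octad0 ∩ x).card = v} =
      (fun k => g • ofMask k) '' {k | k ∈ T.keys.filter fun k => popc (k &&& octad0) == v} := by
    ext x
    simp only [Set.mem_ofPred_eq, Set.mem_image, List.mem_filter, beq_iff_eq]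
    constructor
    · rintro ⟨hx, hm, hv⟩
      have hm' : Meets S 1 (g⁻¹ • x) := by
        have := (meets_smul (S := S) g⁻¹ g x).2 hm
        rwa [inv_mul_cancel] at this
      obtain ⟨k, hk, hke⟩ := C.hX hlt _ (smul_mem_words (inv_mem hg) hx) hm'
      refine ⟨k, ⟨hk, ?_⟩, by rw [hke, smul_inv_smul]⟩
      rw [← inter_card_mask, hke, ← inter_card_smul g, smul_inv_smul, hv]
    · rintro ⟨k, ⟨hk, hv⟩, rfl⟩
      have h := List.all_eq_true.mp C.keys k hk
      rw [Bool.and_eq_true] at h
      refine ⟨smul_mem_words hg (mem_wordsOfWeight_iff.mpr ⟨k, h.1, rfl⟩), ?_, ?_⟩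
      · have := (meets_smul (S := S) g 1 (ofMask k)).2 ((meets_one_iff hlt).mpr h.2)
        rwa [mul_one] at this
      · rw [inter_card_smul, inter_card_mask, hv]
  have hinj : Set.InjOn (fun k => g • ofMask k)
      {k | k ∈ T.keys.filter fun k => popc (k &&& octad0) == v} := by
    intro a ha b hb h
    have hkw : ∀ k ∈ T.keys, isWord 8 k = true := fun k hk => by
      have := List.all_eq_true.mp C.keys k hk
      rw [Bool.and_eq_true] at this
      exact this.1
    have hl : ∀ k ∈ T.keys, k < 2 ^ 24 := fun k hk => by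
      have := hkw k hk
      rw [isWord, Bool.and_eq_true] at this
      exact inCode_lt this.1
    exact ofMask_inj (hl a (List.mem_filter.mp ha).1) (hl b (List.mem_filter.mp hb).1)
      (smul_left_cancel g h)
  rw [hset, hinj.ncard_image,
    show {k | k ∈ T.keys.filter fun k => popc (k &&& octad0) == v} =
      ((T.keys.filter fun k => popc (k &&& octad0) == v).toFinset : Set ℕ) from by ext; simp,
    Set.ncard_coe_finset, List.toFinset_card_of_nodup ((sortedB_nodup C.sorted).filter _)]

theorem Cert.trans (C : Cert S gens roots T) {g : Equiv.Perm GolayPt} (hg : g ∈ M24)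
    (hlt : ∀ e ∈ S, e.1 < 24) {o' o'' : Finset GolayPt} (ho' : o' ∈ octads) (hm' : Meets S g o')
    (ho'' : o'' ∈ octads) (hm'' : Meets S g o'')
    (h : (g • ofMask octad0 ∩ o').card = (g • ofMask octad0 ∩ o'').card) :
    ∃ k ∈ M24, (∀ e ∈ S, k (g (pt e.1)) = g (pt e.1)) ∧
      k • g • ofMask octad0 = g • ofMask octad0 ∧ k • o' = o'' := by
  let K : Subgroup (Equiv.Perm GolayPt) :=
    M24 ⊓ MulAction.stabilizer (Equiv.Perm GolayPt) (ofMask octad0) ⊓
      fixingSubgroup (Equiv.Perm GolayPt) {p | ∃ e ∈ S, pt e.1 = p}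
  have hK : ∀ l ∈ gens, permOf l ∈ K := by
    intro l hl
    refine Subgroup.mem_inf.mpr ⟨gens_le_stab stepMask_sound C.auts C.fixO l hl, ?_⟩
    rw [mem_fixingSubgroup_iff]
    rintro p ⟨e, he, rfl⟩
    have h1 := List.all_eq_true.mp (List.all_eq_true.mp C.fixPts l hl) e he
    simp only [Bool.and_eq_true, beq_iff_eq, Nat.blt_eq] at h1
    have hv : validL l = true := by
      have := List.all_eq_true.mp C.auts l hl
      simp only [autL, Bool.and_eq_true] at this
      exact this.1
    rw [Equiv.Perm.smul_def, permOf_pt hv h1.2, h1.1]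
  have key : ∀ x, x ∈ octads → Meets S g x → ∃ r ∈ roots, ∃ k ∈ K,
      g • k • ofMask r = x ∧ (g • ofMask octad0 ∩ x).card = popc (r &&& octad0) := by
    intro x hx hm
    have hmx : Meets S 1 (g⁻¹ • x) := by
      have := (meets_smul (S := S) g⁻¹ g x).2 hm
      rwa [inv_mul_cancel] at this
    obtain ⟨m, hm1, hme⟩ := C.hX hlt _ (smul_mem_words (inv_mem hg) hx) hmx
    obtain ⟨r, hr, k, hk, hke⟩ := orbit_cert stepMask_sound C.check C.auts K hK m hm1
    refine ⟨r, hr, k, hk, by rw [hke, hme, smul_inv_smul], ?_⟩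
    have hkO : k • ofMask octad0 = ofMask octad0 :=
      MulAction.mem_stabilizer_iff.mp (Subgroup.mem_inf.mp (Subgroup.mem_inf.mp hk).1).2
    calc (g • ofMask octad0 ∩ x).card = (g • ofMask octad0 ∩ g • k • ofMask r).card := by
          rw [hke, hme, smul_inv_smul]
      _ = (k • ofMask octad0 ∩ k • ofMask r).card := by rw [hkO, inter_card_smul]
      _ = popc (r &&& octad0) := by rw [inter_card_smul, inter_card_mask]
  obtain ⟨r, hr, a, ha, hae, hac⟩ := key o' ho' hm'
  obtain ⟨r', hr', b, hb, hbe, hbc⟩ := key o'' ho'' hm''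
  obtain rfl : r = r' := List.inj_on_of_nodup_map C.sep hr hr' (hac.symm.trans (h.trans hbc))
  have hba : b * a⁻¹ ∈ K := mul_mem hb (inv_mem ha)
  simp only [K, Subgroup.mem_inf, MulAction.mem_stabilizer_iff, mem_fixingSubgroup_iff] at hba
  refine ⟨g * (b * a⁻¹) * g⁻¹, mul_mem (mul_mem hg hba.1.1) (inv_mem hg), fun e he => ?_, ?_, ?_⟩
  · have h3 := hba.2 (pt e.1) ⟨e, he, rfl⟩
    rw [Equiv.Perm.smul_def] at h3
    rw [Equiv.Perm.mul_apply, Equiv.Perm.mul_apply, Equiv.Perm.coe_inv, Equiv.symm_apply_apply, h3]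
  · rw [mul_smul, inv_smul_smul, mul_smul g (b * a⁻¹), hba.1.2]
  · rw [← hae, ← hbe]
    simp [mul_smul]

theorem Cert.count_all (C : Cert S gens roots T) (hlt : ∀ e ∈ S, e.1 < 24) {g : Equiv.Perm GolayPt}
    (hg : g ∈ M24) :
    {x : Finset GolayPt | x ∈ octads ∧ Meets S g x}.ncard = T.keys.length := by
  have hw : ∀ k ∈ T.keys, ofMask k ∈ octads ∧ Meets S 1 (ofMask k) ∧ k < 2 ^ 24 := by
    intro k hk
    have h := List.all_eq_true.mp C.keys k hk
    rw [Bool.and_eq_true] at h
    refine ⟨mem_wordsOfWeight_iff.mpr ⟨k, h.1, rfl⟩, (meets_one_iff hlt).mpr h.2, ?_⟩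
    have h1 := h.1
    rw [isWord, Bool.and_eq_true] at h1
    exact inCode_lt h1.1
  have hinj : Set.InjOn (fun k => g • ofMask k) {k | k ∈ T.keys} := fun a ha b hb h =>
    ofMask_inj (hw a ha).2.2 (hw b hb).2.2 (smul_left_cancel g h)
  have hset : {x : Finset GolayPt | x ∈ octads ∧ Meets S g x} =
      (fun k => g • ofMask k) '' {k | k ∈ T.keys} := by
    ext x
    simp only [Set.mem_ofPred_eq, Set.mem_image]
    constructor
    · rintro ⟨hx, hm⟩
      have hm' : Meets S 1 (g⁻¹ • x) := by
        have := (meets_smul (S := S) g⁻¹ g x).2 hm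
        rwa [inv_mul_cancel] at this
      obtain ⟨k, hk, hke⟩ := C.hX hlt _ (smul_mem_words (inv_mem hg) hx) hm'
      exact ⟨k, hk, by rw [hke, smul_inv_smul]⟩
    · rintro ⟨k, hk, rfl⟩
      refine ⟨smul_mem_words hg (hw k hk).1, ?_⟩
      have := (meets_smul (S := S) g 1 (ofMask k)).2 (hw k hk).2.1
      rwa [mul_one] at this
  rw [hset, hinj.ncard_image,
    show {k | k ∈ T.keys} = (T.keys.toFinset : Set ℕ) from by ext; simp,
    Set.ncard_coe_finset, List.toFinset_card_of_nodup (sortedB_nodup C.sorted)]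

theorem cert_twoIn : Cert [(0, true), (1, true)] twoInGens twoInRoots twoInTree :=
  ⟨by decide +kernel, by decide +kernel, by decide +kernel, by decide +kernel, by decide +kernel,
    by decide +kernel, by decide +kernel, by decide +kernel⟩

theorem cert_oneIn : Cert [(0, true)] oneInGens oneInRoots oneInTree :=
  ⟨by decide +kernel, by decide +kernel, by decide +kernel, by decide +kernel, by decide +kernel,
    by decide +kernel, by decide +kernel, by decide +kernel⟩

theorem cert_oneOut : Cert [(outPos, false)] oneOutGens oneOutRoots oneOutTree :=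
  ⟨by decide +kernel, by decide +kernel, by decide +kernel, by decide +kernel, by decide +kernel,
    by decide +kernel, by decide +kernel, by decide +kernel⟩

theorem cert_inOut : Cert [(0, true), (outPos, false)] inOutGens inOutRoots inOutTree :=
  ⟨by decide +kernel, by decide +kernel, by decide +kernel, by decide +kernel, by decide +kernel,
    by decide +kernel, by decide +kernel, by decide +kernel⟩

/-- Some element carries the reference octad to a given one with two prescribed points of it. -/
theorem exists_two_in {o : Finset GolayPt} (ho : o ∈ octads) {p q : GolayPt} (hp : p ∈ o)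
    (hq : q ∈ o) (hpq : p ≠ q) :
    ∃ g ∈ M24, g • ofMask octad0 = o ∧ g (pt 0) = p ∧ g (pt 1) = q := by
  obtain ⟨t, hts, htc⟩ := Finset.exists_subset_card_eq (s := (o.erase p).erase q) (n := 3) (by
    rw [Finset.card_erase_of_mem (Finset.mem_erase.mpr ⟨hpq.symm, hq⟩),
      Finset.card_erase_of_mem hp, ho.2]
    norm_num)
  obtain ⟨a, b, c, hab, hac, hbc, rfl⟩ := Finset.card_eq_three.mp htc
  simp only [Finset.insert_subset_iff, Finset.singleton_subset_iff, Finset.mem_erase] at hts
  obtain ⟨⟨haq, hap, ha⟩, ⟨hbq, hbp, hb⟩, hcq, hcp, hc⟩ := hts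
  let f : ℕ → GolayPt := fun i => [p, q, a, b, c].getD i none
  obtain ⟨g, hg, hgf⟩ := trans_tuple 5 le_rfl f (by
    intro i hi j hj hij
    have hnd : [p, q, a, b, c].Nodup := by
      simp [hpq, hap.symm, hbp.symm, hcp.symm, haq.symm, hbq.symm, hcq.symm, hab, hac, hbc]
    simp only [f] at hij
    rw [List.getD_eq_getElem _ _ (by simpa using hi), List.getD_eq_getElem _ _ (by simpa using hj)] at hij
    exact (List.Nodup.getElem_inj_iff hnd).mp hij)
  refine ⟨g, hg, ?_, hgf 0 (by norm_num), hgf 1 (by norm_num)⟩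
  refine octad_eq_of_five (s := g • ofMask 31) (smul_mem_words hg octad0_mem) ho
    (Finset.smul_finset_subset_smul_finset ((ofMask_subset_iff (by norm_num) (by decide)).mpr
      (by decide))) ?_ (by rw [Finset.card_smul_finset, card_ofMask]; decide)
  intro x hx
  rw [show ofMask 31 = ({pt 0, pt 1, pt 2, pt 3, pt 4} : Finset GolayPt) by decide +kernel] at hx
  simp only [Finset.smul_finset_insert, Finset.smul_finset_singleton, Equiv.Perm.smul_def,
    hgf 0 (by norm_num), hgf 1 (by norm_num), hgf 2 (by norm_num), hgf 3 (by norm_num),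
    hgf 4 (by norm_num), Finset.mem_insert, Finset.mem_singleton] at hx
  rcases hx with rfl | rfl | rfl | rfl | rfl <;> assumption

theorem exists_one_in {o : Finset GolayPt} (ho : o ∈ octads) {p : GolayPt} (hp : p ∈ o) :
    ∃ g ∈ M24, g • ofMask octad0 = o ∧ g (pt 0) = p := by
  obtain ⟨q, hq⟩ : (o.erase p).Nonempty := by
    rw [← Finset.card_pos, Finset.card_erase_of_mem hp, ho.2]; norm_num
  rw [Finset.mem_erase] at hq
  obtain ⟨g, hg, h1, h2, -⟩ := exists_two_in ho hp hq.2 hq.1.symm
  exact ⟨g, hg, h1, h2⟩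

theorem move_out {gens : List (List ℕ)} {roots : List ℕ} {T : OT}
    (hT : T.check stepMask gens roots = true) (hauts : gens.all autL = true)
    (K : Subgroup (Equiv.Perm GolayPt)) (hK : ∀ l ∈ gens, permOf l ∈ K)
    (hroot : roots.all (fun r => r == 2 ^ outPos) = true)
    (hall : ((List.range 24).filter fun i => !octad0.testBit i).all
      (fun i => (T.find (2 ^ i)).isSome) = true)
    {x : GolayPt} (hx : x ∉ ofMask octad0) : ∃ g ∈ K, g (pt outPos) = x := by
  have hmem := OT.mem_keys_of_isSome (List.all_eq_true.mp hall (idx x) (List.mem_filter.mpr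
    ⟨List.mem_range.mpr (idx_lt x), by simpa [ofMask] using hx⟩))
  obtain ⟨r, hr, g, hg, hge⟩ := orbit_cert stepMask_sound hT hauts K hK _ hmem
  obtain rfl : r = 2 ^ outPos := by simpa using List.all_eq_true.mp hroot r hr
  refine ⟨g, hg, ?_⟩
  rw [ofMask_pow_idx, show ofMask (2 ^ outPos) = {pt outPos} by decide +kernel,
    Finset.smul_finset_singleton, Finset.singleton_inj] at hge
  exact hge

theorem exists_one_out {o : Finset GolayPt} (ho : o ∈ octads) {x : GolayPt} (hx : x ∉ o) :
    ∃ g ∈ M24, g • ofMask octad0 = o ∧ g (pt outPos) = x := by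
  obtain ⟨g, hg, rfl⟩ := octad_trans ho
  have hauts : octPtOutGens.all autL = true := by decide +kernel
  have hfix : (octPtOutGens.all fun l => stepMask l octad0 octad0) = true := by decide +kernel
  obtain ⟨k, hk, hkx⟩ := move_out (T := octPtOutTree) (roots := octPtOutRoots) (by decide +kernel)
    hauts _ (gens_le_stab stepMask_sound hauts hfix) (by decide +kernel) (by decide +kernel)
    (x := g⁻¹ x) (fun h => hx (by
      have := Finset.smul_mem_smul_finset (a := g) h
      rwa [Equiv.Perm.smul_def, Equiv.Perm.coe_inv, Equiv.apply_symm_apply] at this))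
  rw [Subgroup.mem_inf, MulAction.mem_stabilizer_iff] at hk
  exact ⟨g * k, mul_mem hg hk.1, by rw [mul_smul, hk.2],
    by rw [Equiv.Perm.mul_apply, hkx, Equiv.Perm.coe_inv, Equiv.apply_symm_apply]⟩

theorem exists_in_out {o : Finset GolayPt} (ho : o ∈ octads) {p q : GolayPt} (hp : p ∈ o)
    (hq : q ∉ o) : ∃ g ∈ M24, g • ofMask octad0 = o ∧ g (pt 0) = p ∧ g (pt outPos) = q := by
  obtain ⟨g, hg, rfl, hgp⟩ := exists_one_in ho hp
  have hauts : octInPtOutGens.all autL = true := by decide +kernel
  have hfix : (octInPtOutGens.all fun l => stepMask l octad0 octad0) = true := by decide +kernel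
  have hfix0 : (octInPtOutGens.all fun l => l.getD 0 0 == 0) = true := by decide +kernel
  let K := M24 ⊓ MulAction.stabilizer (Equiv.Perm GolayPt) (ofMask octad0) ⊓
    MulAction.stabilizer (Equiv.Perm GolayPt) (pt 0)
  have hK : ∀ l ∈ octInPtOutGens, permOf l ∈ K := fun l hl => Subgroup.mem_inf.mpr
    ⟨gens_le_stab stepMask_sound hauts hfix l hl, MulAction.mem_stabilizer_iff.mpr (by
      have hv : validL l = true := by
        have := List.all_eq_true.mp hauts l hl
        simp only [autL, Bool.and_eq_true] at this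
        exact this.1
      rw [Equiv.Perm.smul_def, permOf_pt hv (by norm_num),
        show l.getD 0 0 = 0 by simpa using List.all_eq_true.mp hfix0 l hl])⟩
  obtain ⟨k, hk, hkq⟩ := move_out (T := octInPtOutTree) (roots := octInPtOutRoots)
    (by decide +kernel) hauts K hK (by decide +kernel) (by decide +kernel)
    (x := g⁻¹ q) (fun h => hq (by
      have := Finset.smul_mem_smul_finset (a := g) h
      rwa [Equiv.Perm.smul_def, Equiv.Perm.coe_inv, Equiv.apply_symm_apply] at this))
  simp only [K, Subgroup.mem_inf, MulAction.mem_stabilizer_iff, Equiv.Perm.smul_def] at hk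
  exact ⟨g * k, mul_mem hg hk.1.1, by rw [mul_smul, hk.1.2],
    by rw [Equiv.Perm.mul_apply, hk.2, hgp],
    by rw [Equiv.Perm.mul_apply, hkq, Equiv.Perm.coe_inv, Equiv.apply_symm_apply]⟩

theorem counts :
    ((twoInTree.keys.filter fun k => popc (k &&& octad0) == 2).length = 16 ∧
    (twoInTree.keys.filter fun k => popc (k &&& octad0) == 4).length = 60) ∧
    ((oneInTree.keys.filter fun k => popc (k &&& octad0) == 2).length = 112 ∧
    (oneInTree.keys.filter fun k => popc (k &&& octad0) == 4).length = 140) ∧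
    ((oneOutTree.keys.filter fun k => popc (k &&& octad0) == 0).length = 15 ∧
    (oneOutTree.keys.filter fun k => popc (k &&& octad0) == 4).length = 210 ∧
    (oneOutTree.keys.filter fun k => popc (k &&& octad0) == 2).length = 280) ∧
    ((inOutTree.keys.filter fun k => popc (k &&& octad0) == 2).length = 70 ∧
    (inOutTree.keys.filter fun k => popc (k &&& octad0) == 4).length = 105) ∧
    inOutTree.keys.length = 176 := by
  decide +kernel

end Cfsg.Agent.OctadSub
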