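/-
The quartets of the reference dodecad and their transport to every dodecad.
-/
import Cfsg.Agent.M24Geo.Dodecad
import Cfsg.Agent.Sporadic.QuartetData

set_option autoImplicit false

namespace Cfsg.Agent.Quartet

open scoped Pointwise
open Cfsg Cfsg.Agent.M24Geo

/-- The reference dodecad. -/
abbrev d0 : Finset GolayPt := ofMask dodecad0

/-- The reference quartet. -/
abbrev Q0 : Finset (Finset GolayPt) := decSets 4 quartet0

/-- The triples making a hexad with a given one. -/
def partners (a : ℕ) : List ℕ := (hexList.filter fun h => h &&& a == a).map (· ^^^ a)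

/-- Membership in the hexads of the reference dodecad. -/
def hexB (m : ℕ) : Bool := (hexTree.find m).isSome

/-- Membership in the triples of the reference dodecad. -/
def tripleB (m : ℕ) : Bool := (tripleTree.find m).isSome

/-- Insertion in an increasing list. -/
def ins (x : ℕ) : List ℕ → List ℕ
  | [] => [x]
  | y :: L => bif Nat.blt x y then x :: y :: L else y :: ins x L

/-- The key of four triples. -/
def keyOf (L : List ℕ) : ℕ := pack (L.foldr ins [])

/-- The completion of two triples to a quartet is unique and listed. -/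
def pairOK (a b : ℕ) : Bool :=
  match (partners a).filter (fun c => b &&& c == 0 && hexB (b ||| c)) with
  | [c, e] => (quartetTree.find (keyOf [a, b, c, e])).isSome &&
      sameSet (masksOf 4 (keyOf [a, b, c, e])) [a, b, c, e]
  | _ => false

theorem hexList_eq :
    ((wordList 8).filter fun o => popc (o &&& dodecad0) == 6).map (· &&& dodecad0) = hexList := by
  decide +kernel

theorem tripleList_ok : tripleList.all (fun a =>
    Nat.blt a 16777216 && popc a == 3 && a &&& dodecad0 == a) = true := by decide +kernel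

theorem tripleList_all :
    (((List.range 24).filter fun i => dodecad0.testBit i).all fun i =>
      ((List.range 24).filter fun i => dodecad0.testBit i).all fun j =>
        ((List.range 24).filter fun i => dodecad0.testBit i).all fun k =>
          i == j || i == k || j == k || tripleB (2 ^ i ||| 2 ^ j ||| 2 ^ k)) = true := by
  decide +kernel

theorem trees_ok : hexList.all hexB = true ∧
    hexTree.keys.all (fun m => hexList.contains m) = true ∧
    tripleTree.keys = tripleList := by decide +kernel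

theorem pairs_ok : (tripleList.all fun a => (partners a).all (pairOK a)) = true := by
  decide +kernel

theorem keys_ok : (quartetTree.keys.all fun k =>
    sortedB (masksOf 4 k) && pack (masksOf 4 k) == k &&
      (masksOf 4 k).all tripleB &&
      (masksOf 4 k).all fun x => (masksOf 4 k).all fun y =>
        x == y || hexB (x ||| y)) = true := by
  decide +kernel

theorem tree_ok : quartetTree.check (stepSets 4) quartetGens quartetRoots = true ∧
    quartetGens.all autL = true ∧
    (quartetGens.all fun l => stepMask l dodecad0 dodecad0) = true ∧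
    (quartetRoots.all fun r => r == quartet0) = true ∧ sortedB quartetTree.keys = true ∧
    quartetTree.keys.length = 220 ∧ (quartetTree.find quartet0).isSome = true := by
  decide +kernel

theorem codeList_inCode : codeList.all inCode = true := by decide +kernel

theorem single_idx (p : GolayPt) : ofMask (2 ^ idx p) = {p} := by
  ext q
  simp [Nat.testBit_two_pow, idx_injective.eq_iff, eq_comm]

theorem triple_spec {a : ℕ} (ha : a ∈ tripleList) :
    a < 2 ^ 24 ∧ (ofMask a).card = 3 ∧ ofMask a ⊆ d0 := by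
  have h := List.all_eq_true.mp tripleList_ok a ha
  simp only [Bool.and_eq_true, beq_iff_eq, Nat.blt_eq] at h
  refine ⟨h.1.1, by rw [card_ofMask, h.1.2], ?_⟩
  exact (ofMask_subset_iff h.1.1 (by decide)).mpr h.2

theorem hexB_iff {m : ℕ} : hexB m = true ↔ m ∈ hexList :=
  ⟨fun h => List.contains_iff_mem.mp
      (List.all_eq_true.mp trees_ok.2.1 m (OT.mem_keys_of_isSome h)),
    List.all_eq_true.mp trees_ok.1 m⟩

theorem mem_of_tripleB {m : ℕ} (h : tripleB m = true) : m ∈ tripleList :=
  trees_ok.2.2 ▸ OT.mem_keys_of_isSome h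

theorem exists_triple {t : Finset GolayPt} (h3 : t.card = 3) (ht : t ⊆ d0) :
    ∃ a ∈ tripleList, ofMask a = t := by
  obtain ⟨p, q, r, hpq, hpr, hqr, rfl⟩ := Finset.card_eq_three.mp h3
  simp only [Finset.insert_subset_iff, Finset.singleton_subset_iff] at ht
  have hm : ∀ x ∈ d0, idx x ∈ (List.range 24).filter fun i => dodecad0.testBit i := fun x hx =>
    List.mem_filter.mpr ⟨List.mem_range.mpr (idx_lt x), mem_ofMask.mp hx⟩
  have h := List.all_eq_true.mp (List.all_eq_true.mp (List.all_eq_true.mp tripleList_all _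
    (hm p ht.1)) _ (hm q ht.2.1)) _ (hm r ht.2.2)
  simp only [Bool.or_eq_true, beq_iff_eq] at h
  refine ⟨_, mem_of_tripleB (h.resolve_left ?_), ?_⟩
  · rintro ((e | e) | e)
    · exact hpq (idx_injective e)
    · exact hpr (idx_injective e)
    · exact hqr (idx_injective e)
  · rw [ofMask_or, ofMask_or, single_idx, single_idx, single_idx]
    ext x
    simp

theorem hex_iff {m : ℕ} (hm : m < 2 ^ 24) : ofMask m ∈ hexadsOn d0 ↔ m ∈ hexList := by
  constructor
  · rintro ⟨hc, o, ho, he⟩
    obtain ⟨k, hk, rfl⟩ := mem_wordsOfWeight_iff.mp ho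
    rw [← ofMask_and] at he
    have := ofMask_inj (Nat.and_lt_two_pow _ (by decide)) hm he
    subst this
    rw [card_ofMask] at hc
    rw [← hexList_eq]
    exact List.mem_map.mpr ⟨k, List.mem_filter.mpr ⟨mem_wordList hk, by simpa using hc⟩, rfl⟩
  · rw [← hexList_eq, List.mem_map]
    rintro ⟨k, hk, rfl⟩
    rw [List.mem_filter, wordList, List.mem_filter] at hk
    refine ⟨by rw [card_ofMask]; simpa using hk.2, ofMask k, ?_, (ofMask_and _ _).symm⟩
    refine mem_wordsOfWeight_iff.mpr ⟨k, ?_, rfl⟩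
    rw [isWord, Bool.and_eq_true]
    exact ⟨List.all_eq_true.mp codeList_inCode _ hk.1.1, hk.1.2⟩

theorem mem_partners {a b : ℕ} (ha : a ∈ tripleList) (hb : b ∈ tripleList)
    (h : ofMask a ∪ ofMask b ∈ hexadsOn d0) : b ∈ partners a := by
  obtain ⟨ha1, ha2, -⟩ := triple_spec ha
  obtain ⟨hb1, hb2, -⟩ := triple_spec hb
  have hd : Disjoint (ofMask a) (ofMask b) := by
    rw [← Finset.card_union_eq_card_add_card, h.1, ha2, hb2]
  rw [ofMask_disjoint_iff hb1] at hd
  rw [← ofMask_or, hex_iff (Nat.or_lt_two_pow ha1 hb1)] at h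
  refine List.mem_map.mpr ⟨a ||| b, List.mem_filter.mpr ⟨h, ?_⟩, ?_⟩
  · rw [beq_iff_eq]
    refine Nat.eq_of_testBit_eq fun i => ?_
    simp only [Nat.testBit_and, Nat.testBit_or]
    cases a.testBit i <;> cases b.testBit i <;> rfl
  · refine Nat.eq_of_testBit_eq fun i => ?_
    have := congrArg (fun n : ℕ => n.testBit i) hd
    simp only [Nat.testBit_and, Nat.zero_testBit] at this
    simp only [Nat.testBit_xor, Nat.testBit_or]
    revert this
    cases a.testBit i <;> cases b.testBit i <;> simp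

theorem key_spec {k : ℕ} (hk : k ∈ quartetTree.keys) : decSets 4 k ∈ quartets d0 := by
  have h := List.all_eq_true.mp keys_ok k hk
  simp only [Bool.and_eq_true, List.all_eq_true, Bool.or_eq_true, beq_iff_eq,
    hexB_iff] at h
  refine ⟨?_, ?_, ?_⟩
  · rw [decSets, Finset.card_image_of_injOn, List.toFinset_card_of_nodup (sortedB_nodup h.1.1.1)]
    · rfl
    · intro x hx y hy hxy
      exact ofMask_inj (masksOf_lt _ _ x (List.mem_toFinset.mp hx))
        (masksOf_lt _ _ y (List.mem_toFinset.mp hy)) hxy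
  · intro t ht
    obtain ⟨m, hm, rfl⟩ := mem_decSets.mp ht
    exact (triple_spec (mem_of_tripleB (h.1.2 m hm))).2
  · intro t ht u hu htu
    obtain ⟨m, hm, rfl⟩ := mem_decSets.mp ht
    obtain ⟨n, hn, rfl⟩ := mem_decSets.mp hu
    rw [← ofMask_or, hex_iff (Nat.or_lt_two_pow (masksOf_lt _ _ m hm) (masksOf_lt _ _ n hn))]
    exact (h.2 m hm n hn).resolve_left fun e => htu (by rw [e])

/-- Two triples making a hexad lie in exactly one quartet, and it is listed. -/
theorem pair_spec {t u : Finset GolayPt} (ht : t.card = 3) (ht' : t ⊆ d0) (hu : u.card = 3)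
    (hu' : u ⊆ d0) (htu : t ≠ u) (hh : t ∪ u ∈ hexadsOn d0) :
    ∃ k ∈ quartetTree.keys, t ∈ decSets 4 k ∧ u ∈ decSets 4 k ∧
      ∀ Q ∈ quartets d0, t ∈ Q → u ∈ Q → Q = decSets 4 k := by
  obtain ⟨a, ha, rfl⟩ := exists_triple ht ht'
  obtain ⟨b, hb, rfl⟩ := exists_triple hu hu'
  have hne : a ≠ b := fun e => htu (by rw [e])
  have h := List.all_eq_true.mp (List.all_eq_true.mp pairs_ok a ha) b (mem_partners ha hb hh)
  rw [pairOK] at h
  split at h
  case h_2 => simp at h
  case h_1 c e hC =>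
    rw [Bool.and_eq_true] at h
    have hs := sameSet_iff h.2
    have hmem : ∀ s, s ∈ decSets 4 (keyOf [a, b, c, e]) ↔
        s = ofMask a ∨ s = ofMask b ∨ s = ofMask c ∨ s = ofMask e := by
      intro s
      rw [mem_decSets]
      simp [hs, eq_comm]
    refine ⟨_, OT.mem_keys_of_isSome h.1, (hmem _).2 (.inl rfl), (hmem _).2 (.inr (.inl rfl)), ?_⟩
    intro Q hQ hta hub
    refine Finset.eq_of_subset_of_card_le (fun s hs' => (hmem s).2 ?_) ?_
    · by_cases e1 : s = ofMask a
      · exact .inl e1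
      by_cases e2 : s = ofMask b
      · exact .inr (.inl e2)
      obtain ⟨x, hx, rfl⟩ := exists_triple (hQ.2.1 s hs').1 (hQ.2.1 s hs').2
      have h1 := mem_partners ha hx (hQ.2.2 _ hta _ hs' (Ne.symm e1))
      have h2 := hQ.2.2 _ hub _ hs' (Ne.symm e2)
      obtain ⟨hb1, hb2, -⟩ := triple_spec hb
      obtain ⟨hx1, hx2, -⟩ := triple_spec hx
      have hd : Disjoint (ofMask b) (ofMask x) := by
        rw [← Finset.card_union_eq_card_add_card, h2.1, hb2, hx2]
      rw [ofMask_disjoint_iff hx1] at hd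
      rw [← ofMask_or, hex_iff (Nat.or_lt_two_pow hb1 hx1), ← hexB_iff] at h2
      have : x ∈ [c, e] := hC ▸ List.mem_filter.mpr ⟨h1, by simp [hd, h2]⟩
      simp only [List.mem_cons, List.not_mem_nil, or_false] at this
      rcases this with rfl | rfl
      · exact .inr (.inr (.inl rfl))
      · exact .inr (.inr (.inr rfl))
    · rw [hQ.1, (key_spec (OT.mem_keys_of_isSome h.1)).1]

theorem exists_key {Q : Finset (Finset GolayPt)} (hQ : Q ∈ quartets d0) :
    ∃ k ∈ quartetTree.keys, decSets 4 k = Q := by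
  obtain ⟨t, ht, u, hu, htu⟩ := Finset.one_lt_card.mp (show 1 < Q.card by rw [hQ.1]; norm_num)
  obtain ⟨k, hk, -, -, h⟩ := pair_spec (hQ.2.1 t ht).1 (hQ.2.1 t ht).2 (hQ.2.1 u hu).1
    (hQ.2.1 u hu).2 htu (hQ.2.2 t ht u hu htu)
  exact ⟨k, hk, (h Q hQ ht hu).symm⟩

theorem decSets_injOn : Set.InjOn (decSets 4) {k | k ∈ quartetTree.keys} := by
  intro k hk l hl h
  have hk' := List.all_eq_true.mp keys_ok k hk
  have hl' := List.all_eq_true.mp keys_ok l hl
  simp only [Bool.and_eq_true, beq_iff_eq] at hk' hl'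
  rw [← hk'.1.1.2, ← hl'.1.1.2]
  congr 1
  refine List.Perm.eq_of_pairwise (le := (· < ·)) (fun a b _ _ h1 h2 => absurd h1 (lt_asymm h2))
    (sortedB_pairwise hk'.1.1.1) (sortedB_pairwise hl'.1.1.1) ?_
  refine (List.perm_ext_iff_of_nodup (sortedB_nodup hk'.1.1.1) (sortedB_nodup hl'.1.1.1)).mpr ?_
  intro m
  have key : ∀ j j' : ℕ, decSets 4 j = decSets 4 j' → m ∈ masksOf 4 j → m ∈ masksOf 4 j' := by
    intro j j' hj hm
    obtain ⟨n, hn, he⟩ := mem_decSets.mp (hj ▸ mem_decSets.mpr ⟨m, hm, rfl⟩)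
    rwa [← ofMask_inj (masksOf_lt _ _ n hn) (masksOf_lt _ _ m hm) he]
  exact ⟨key k l h, key l k h.symm⟩

theorem quartets_eq : quartets d0 = decSets 4 '' {k | k ∈ quartetTree.keys} := by
  ext Q
  exact ⟨fun hQ => exists_key hQ, by rintro ⟨k, hk, rfl⟩; exact key_spec hk⟩

theorem ncard_quartets0 : (quartets d0).ncard = 220 := by
  rw [quartets_eq, decSets_injOn.ncard_image,
    show {k | k ∈ quartetTree.keys} = (quartetTree.keys.toFinset : Set ℕ) from by ext; simp,
    Set.ncard_coe_finset, List.toFinset_card_of_nodup (sortedB_nodup tree_ok.2.2.2.2.1),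
    tree_ok.2.2.2.2.2.1]

theorem Q0_mem : Q0 ∈ quartets d0 :=
  key_spec (OT.mem_keys_of_isSome tree_ok.2.2.2.2.2.2)

theorem trans0 {Q : Finset (Finset GolayPt)} (hQ : Q ∈ quartets d0) :
    ∃ g ∈ M24, g • d0 = d0 ∧ g • Q0 = Q := by
  obtain ⟨k, hk, rfl⟩ := exists_key hQ
  obtain ⟨r, hr, g, hg, hge⟩ := orbit_cert (stepSets_sound 4) tree_ok.1 tree_ok.2.1 _
    (gens_le_stab stepMask_sound tree_ok.2.1 tree_ok.2.2.1) k hk
  rw [Subgroup.mem_inf, MulAction.mem_stabilizer_iff] at hg
  obtain rfl : r = quartet0 := by simpa using List.all_eq_true.mp tree_ok.2.2.2.1 r hr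
  exact ⟨g, hg.1, hg.2, hge⟩

theorem smul_hexad {g : Equiv.Perm GolayPt} (hg : g ∈ M24) {d h : Finset GolayPt}
    (hh : h ∈ hexadsOn d) : g • h ∈ hexadsOn (g • d) := by
  obtain ⟨hc, o, ho, rfl⟩ := hh
  exact ⟨by rw [Finset.card_smul_finset, hc], g • o, smul_mem_words hg ho,
    (Finset.smul_finset_inter ..).symm⟩

theorem smul_quartet {g : Equiv.Perm GolayPt} (hg : g ∈ M24) {d : Finset GolayPt}
    {Q : Finset (Finset GolayPt)} (hQ : Q ∈ quartets d) : g • Q ∈ quartets (g • d) := by
  refine ⟨by rw [Finset.card_smul_finset, hQ.1], fun t ht => ?_, fun t ht u hu htu => ?_⟩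
  · obtain ⟨t, ht', rfl⟩ := Finset.mem_smul_finset.mp ht
    exact ⟨by rw [Finset.card_smul_finset, (hQ.2.1 t ht').1],
      Finset.smul_finset_subset_smul_finset (hQ.2.1 t ht').2⟩
  · obtain ⟨t, ht', rfl⟩ := Finset.mem_smul_finset.mp ht
    obtain ⟨u, hu', rfl⟩ := Finset.mem_smul_finset.mp hu
    rw [← Finset.smul_finset_union]
    exact smul_hexad hg (hQ.2.2 t ht' u hu' fun e => htu (by rw [e]))

theorem quartets_smul {g : Equiv.Perm GolayPt} (hg : g ∈ M24) (d : Finset GolayPt) :
    quartets (g • d) = (fun Q => g • Q) '' quartets d := by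
  ext Q
  constructor
  · intro hQ
    refine ⟨g⁻¹ • Q, ?_, smul_inv_smul _ _⟩
    simpa using smul_quartet (inv_mem hg) hQ
  · rintro ⟨Q, hQ, rfl⟩
    exact smul_quartet hg hQ

theorem ncard_quartets {d : Finset GolayPt} (hd : d ∈ dodecads) : (quartets d).ncard = 220 := by
  obtain ⟨g, hg, rfl⟩ := dodecad_trans hd
  rw [quartets_smul hg, Set.ncard_image_of_injective _ (MulAction.injective g), ncard_quartets0]

/-- Every quartet on every dodecad is an image of the reference one. -/
theorem move {d : Finset GolayPt} (hd : d ∈ dodecads) {Q : Finset (Finset GolayPt)}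
    (hQ : Q ∈ quartets d) : ∃ g ∈ M24, g • d0 = d ∧ g • Q0 = Q := by
  obtain ⟨g, hg, rfl⟩ := dodecad_trans hd
  have h : g⁻¹ • Q ∈ quartets d0 := by simpa using smul_quartet (inv_mem hg) hQ
  obtain ⟨k, hk, hk1, hk2⟩ := trans0 h
  exact ⟨g * k, mul_mem hg hk, by rw [mul_smul, hk1], by rw [mul_smul, hk2, smul_inv_smul]⟩

theorem existsUnique_quartet {d : Finset GolayPt} (hd : d ∈ dodecads) {t u : Finset GolayPt}
    (ht : t.card = 3) (hu : u.card = 3) (htu : Disjoint t u) (hh : t ∪ u ∈ hexadsOn d) :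
    ∃! Q : Finset (Finset GolayPt), Q ∈ quartets d ∧ t ∈ Q ∧ u ∈ Q := by
  obtain ⟨g, hg, rfl⟩ := dodecad_trans hd
  have hh' : g⁻¹ • t ∪ g⁻¹ • u ∈ hexadsOn d0 := by
    simpa [← Finset.smul_finset_union] using smul_hexad (inv_mem hg) hh
  obtain ⟨-, o, -, ho⟩ := hh'
  have hsub : g⁻¹ • t ∪ g⁻¹ • u ⊆ d0 := ho ▸ Finset.inter_subset_right
  rw [Finset.union_subset_iff] at hsub
  have hne : g⁻¹ • t ≠ g⁻¹ • u := by
    intro e
    rw [smul_left_cancel g⁻¹ e, disjoint_self, Finset.bot_eq_empty] at htu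
    simp [htu] at hu
  obtain ⟨k, hk, hkt, hku, huniq⟩ := pair_spec (by rw [Finset.card_smul_finset, ht]) hsub.1
    (by rw [Finset.card_smul_finset, hu]) hsub.2 hne
    (by simpa [← Finset.smul_finset_union] using smul_hexad (inv_mem hg) hh)
  refine ⟨g • decSets 4 k, ⟨smul_quartet hg (key_spec hk), ?_, ?_⟩, ?_⟩
  · exact Finset.mem_smul_finset.mpr ⟨_, hkt, smul_inv_smul _ _⟩
  · exact Finset.mem_smul_finset.mpr ⟨_, hku, smul_inv_smul _ _⟩
  · rintro Q ⟨hQ, hQt, hQu⟩
    rw [← huniq (g⁻¹ • Q) (by simpa using smul_quartet (inv_mem hg) hQ)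
      (Finset.smul_mem_smul_finset hQt) (Finset.smul_mem_smul_finset hQu), smul_inv_smul]

end Cfsg.Agent.Quartet
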