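/-
The stabiliser of a quartet in the stabiliser of its dodecad.
-/
import Cfsg.Agent.Sporadic.Quartet
import Cfsg.Agent.Golay.Mathieu

set_option autoImplicit false

namespace Cfsg.Agent.Quartet

open scoped Pointwise
open Cfsg Cfsg.Agent.M24Geo

/-- The stabiliser of the reference quartet and dodecad. -/
abbrev K0 : Subgroup (Equiv.Perm GolayPt) :=
  M24 ⊓ MulAction.stabilizer (Equiv.Perm GolayPt) d0 ⊓
    MulAction.stabilizer (Equiv.Perm GolayPt) Q0

theorem mem_K0 {g : Equiv.Perm GolayPt} : g ∈ K0 ↔ g ∈ M24 ∧ g • d0 = d0 ∧ g • Q0 = Q0 := by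
  simp [K0, Subgroup.mem_inf, and_assoc]

/-- The stabiliser of an image pair is isomorphic to the reference one, by conjugation. -/
def stabEquiv {g : Equiv.Perm GolayPt} (hg : g ∈ M24) {d : Finset GolayPt}
    {Q : Finset (Finset GolayPt)} (hd : g • d0 = d) (hQ : g • Q0 = Q) :
    ↥(MulAction.stabilizer M24 d ⊓ MulAction.stabilizer M24 Q) ≃* ↥K0 where
  toFun k := ⟨g⁻¹ * ((k : ↥M24) : Equiv.Perm GolayPt) * g, by
    have h1 : ((k : ↥M24) : Equiv.Perm GolayPt) • d = d := k.2.1
    have h2 : ((k : ↥M24) : Equiv.Perm GolayPt) • Q = Q := k.2.2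
    refine mem_K0.mpr ⟨mul_mem (mul_mem (inv_mem hg) (k : ↥M24).2) hg, ?_, ?_⟩
    · rw [mul_smul, hd, mul_smul, h1, ← hd, inv_smul_smul]
    · rw [mul_smul, hQ, mul_smul, h2, ← hQ, inv_smul_smul]⟩
  invFun k := ⟨⟨g * (k : Equiv.Perm GolayPt) * g⁻¹,
    mul_mem (mul_mem hg (mem_K0.mp k.2).1) (inv_mem hg)⟩, by
      obtain ⟨-, h1, h2⟩ := mem_K0.mp k.2
      constructor
      · show (g * (k : Equiv.Perm GolayPt) * g⁻¹) • d = d
        rw [← hd, mul_smul, inv_smul_smul, mul_smul, h1]
      · show (g * (k : Equiv.Perm GolayPt) * g⁻¹) • Q = Q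
        rw [← hQ, mul_smul, inv_smul_smul, mul_smul, h2]⟩
  left_inv k := by
    refine Subtype.ext (Subtype.ext ?_)
    show g * (g⁻¹ * ((k : ↥M24) : Equiv.Perm GolayPt) * g) * g⁻¹ = _
    group
  right_inv k := by
    refine Subtype.ext ?_
    show g⁻¹ * (g * (k : Equiv.Perm GolayPt) * g⁻¹) * g = _
    group
  map_mul' a b := by
    refine Subtype.ext ?_
    show g⁻¹ * (((a : ↥M24) : Equiv.Perm GolayPt) * ((b : ↥M24) : Equiv.Perm GolayPt)) * g =
      (g⁻¹ * ((a : ↥M24) : Equiv.Perm GolayPt) * g) * (g⁻¹ * ((b : ↥M24) : Equiv.Perm GolayPt) * g)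
    group

theorem card_K0 : Nat.card ↥K0 = 432 := by
  let S := MulAction.stabilizer M24 d0
  have horb : MulAction.orbit S Q0 = quartets d0 := by
    ext Q
    constructor
    · rintro ⟨g, rfl⟩
      have h : ((g : ↥M24) : Equiv.Perm GolayPt) • d0 = d0 := g.2
      have := smul_quartet (g : ↥M24).2 Q0_mem
      rwa [h] at this
    · intro hQ
      obtain ⟨g, hg, hg1, hg2⟩ := trans0 hQ
      exact ⟨⟨⟨g, hg⟩, MulAction.mem_stabilizer_iff.mpr hg1⟩, hg2⟩
  have hS : Nat.card S = 95040 := (Cfsg.Agent.Golay.card_inf_stabilizer_set dodecad0_mem).2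
  have h := Subgroup.index_mul_card (MulAction.stabilizer S Q0)
  rw [MulAction.index_stabilizer, horb, ncard_quartets0, hS] at h
  have e : Nat.card ↥K0 = Nat.card (MulAction.stabilizer S Q0) := Nat.card_congr
    { toFun := fun x => ⟨⟨⟨x.1, (mem_K0.mp x.2).1⟩, (mem_K0.mp x.2).2.1⟩, (mem_K0.mp x.2).2.2⟩
      invFun := fun x => ⟨((x.1 : ↥M24) : Equiv.Perm GolayPt),
        mem_K0.mpr ⟨(x.1 : ↥M24).2, x.1.2, x.2⟩⟩
      left_inv := fun _ => rfl
      right_inv := fun _ => rfl }
  omega

/-! ### Lists -/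

/-- Composition of lists of images. -/
def compL (a b : List ℕ) : List ℕ := b.map fun i => a.getD i 0

/-- Stabilising the reference pair, on lists. -/
def inK (l : List ℕ) : Bool :=
  autL l && stepMask l dodecad0 dodecad0 && stepSets 4 l quartet0 quartet0

theorem autL_valid {l : List ℕ} (h : autL l = true) : validL l = true := by
  simp only [autL, Bool.and_eq_true] at h
  exact h.1

theorem inK_mem {l : List ℕ} (h : inK l = true) : permOf l ∈ K0 := by
  simp only [inK, Bool.and_eq_true] at h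
  exact mem_K0.mpr ⟨permOf_mem_M24 h.1.1, stepMask_sound l _ _ h.1.1 h.1.2,
    stepSets_sound 4 l _ _ h.1.1 h.2⟩

theorem permOf_inj {a b : List ℕ} (ha : validL a = true) (hb : validL b = true)
    (h : permOf a = permOf b) : a = b := by
  have hla : a.length = 24 ∧ b.length = 24 := by
    simp only [validL, Bool.and_eq_true, beq_iff_eq] at ha hb
    exact ⟨ha.1.1, hb.1.1⟩
  refine List.ext_getElem (hla.1.trans hla.2.symm) fun i h1 h2 => ?_
  have := congrArg (fun g : Equiv.Perm GolayPt => idx (g (pt i))) h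
  simp only [idx_permOf ha, idx_permOf hb, idx_pt i (hla.1 ▸ h1)] at this
  rwa [List.getD_eq_getElem _ _ h1, List.getD_eq_getElem _ _ h2] at this

theorem comp_eq {a b a' b' : List ℕ} (ha : validL a = true) (hb : validL b = true)
    (ha' : validL a' = true) (hb' : validL b' = true) (h : compL a b = compL a' b') :
    permOf a * permOf b = permOf a' * permOf b' := by
  refine Equiv.ext fun p => idx_injective ?_
  have hl : ∀ l : List ℕ, validL l = true → idx p < l.length := fun l hl => by
    simp only [validL, Bool.and_eq_true, beq_iff_eq] at hl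
    rw [hl.1.1]; exact idx_lt p
  have := congrArg (fun L : List ℕ => L[idx p]?) h
  simp only [compL, List.getElem?_map, List.getElem?_eq_getElem (hl b hb),
    List.getElem?_eq_getElem (hl b' hb'), Option.map_some, Option.some.injEq] at this
  simp only [Equiv.Perm.mul_apply, idx_permOf ha, idx_permOf hb, idx_permOf ha', idx_permOf hb',
    List.getD_eq_getElem _ _ (hl b hb), List.getD_eq_getElem _ _ (hl b' hb'), this]

/-! ### The normal subgroup of order 9 and the matrices of the conjugation action -/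

/-- The list of an element of the normal subgroup with given coordinates. -/
def nuL (i j : ℕ) : List ℕ := nuList.getD (3 * i + j) []

/-- The element of the normal subgroup with given coordinates. -/
noncomputable def nu (v : Fin 2 → ZMod 3) : Equiv.Perm GolayPt := permOf (nuL (v 0).val (v 1).val)

/-- The matrix in a witness. -/
def matOf (m : List ℕ) : Matrix (Fin 2) (Fin 2) (ZMod 3) :=
  !![(m.getD 0 0 : ZMod 3), (m.getD 1 0 : ZMod 3); (m.getD 2 0 : ZMod 3), (m.getD 3 0 : ZMod 3)]

/-- The check of one witness. -/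
def witOK (e : List ℕ × List ℕ) : Bool :=
  inK e.1 && (e.2.getD 0 0 * e.2.getD 3 0 % 3 != e.2.getD 1 0 * e.2.getD 2 0 % 3) &&
    (List.range 3).all fun i => (List.range 3).all fun j =>
      compL e.1 (nuL i j) == compL (nuL ((e.2.getD 0 0 * i + e.2.getD 1 0 * j) % 3)
        ((e.2.getD 2 0 * i + e.2.getD 3 0 * j) % 3)) e.1

theorem wit_ok : witList.all witOK = true := by decide +kernel

theorem nu_check : nuList.length = 9 ∧ nuList.all validL = true ∧ nuList.Nodup := by decide +kernel

theorem nu_valid {i j : ℕ} (hi : i < 3) (hj : j < 3) : validL (nuL i j) = true := by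
  have hl := nu_check.1
  rw [nuL, List.getD_eq_getElem _ _ (by omega)]
  exact List.all_eq_true.mp nu_check.2.1 _ (List.getElem_mem _)

theorem nuL_inj {i j k l : ℕ} (hi : i < 3) (hj : j < 3) (hk : k < 3) (hl : l < 3)
    (h : nuL i j = nuL k l) : i = k ∧ j = l := by
  have hlen := nu_check.1
  rw [nuL, nuL, List.getD_eq_getElem _ _ (by omega), List.getD_eq_getElem _ _ (by omega),
    List.Nodup.getElem_inj_iff nu_check.2.2] at h
  omega

theorem stab_ok : (pointStab.all fun l => inK l && l.getD pos0 0 == pos0) = true ∧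
    pointStab.Nodup ∧ pointStab.length = 36 ∧
    (pointStab.all fun l => witList.any fun e => e.1 == l) = true ∧
    quartetPtTree.check stepMask quartetPtGens quartetPtRoots = true ∧
    quartetPtGens.all inK = true ∧
    (quartetPtRoots.all fun r => r == 2 ^ pos0) = true ∧
    (quartetPtGens.all fun l => witList.any fun e => e.1 == l) = true ∧
    ((((List.range 24).filter fun i => dodecad0.testBit i).all fun i =>
      (quartetPtTree.find (2 ^ i)).isSome) = true) ∧ dodecad0.testBit pos0 = true ∧ pos0 < 24 := by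
  decide +kernel

theorem nu_injective : Function.Injective nu := by
  intro v w h
  have hv := nu_valid (ZMod.val_lt (v 0)) (ZMod.val_lt (v 1))
  have hw := nu_valid (ZMod.val_lt (w 0)) (ZMod.val_lt (w 1))
  obtain ⟨h0, h1⟩ := nuL_inj (ZMod.val_lt (v 0)) (ZMod.val_lt (v 1)) (ZMod.val_lt (w 0))
    (ZMod.val_lt (w 1)) (permOf_inj hv hw h)
  funext i
  fin_cases i
  · exact ZMod.val_injective _ h0
  · exact ZMod.val_injective _ h1

/-- Acting on the nine elements by a matrix. -/
def ActsBy (g : Equiv.Perm GolayPt) (M : GL (Fin 2) (ZMod 3)) : Prop :=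
  ∀ v, g * nu v * g⁻¹ = nu ((M : Matrix (Fin 2) (Fin 2) (ZMod 3)).mulVec v)

theorem actsBy_unique {g : Equiv.Perm GolayPt} {M N : GL (Fin 2) (ZMod 3)} (h : ActsBy g M)
    (h' : ActsBy g N) : M = N := by
  refine Units.ext (Matrix.ext fun i j => ?_)
  have := congrFun (nu_injective ((h (Pi.single j 1)).symm.trans (h' (Pi.single j 1)))) i
  simpa using this

theorem actsBy_mul {g h : Equiv.Perm GolayPt} {M N : GL (Fin 2) (ZMod 3)} (hg : ActsBy g M)
    (hh : ActsBy h N) : ActsBy (g * h) (M * N) := by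
  intro v
  rw [Units.val_mul, ← Matrix.mulVec_mulVec, ← hg, ← hh]
  group

theorem actsBy_one : ActsBy 1 1 := fun v => by simp

/-- The elements normalising the nine elements linearly. -/
def linGroup : Subgroup (Equiv.Perm GolayPt) where
  carrier := {g | ∃ M, ActsBy g M}
  mul_mem' := fun ⟨M, hM⟩ ⟨N, hN⟩ => ⟨M * N, actsBy_mul hM hN⟩
  one_mem' := ⟨1, actsBy_one⟩
  inv_mem' := fun {g} ⟨M, hM⟩ => ⟨M⁻¹, fun v => by
    have := hM ((↑M⁻¹ : Matrix (Fin 2) (Fin 2) (ZMod 3)).mulVec v)
    rw [Matrix.mulVec_mulVec, ← Units.val_mul, mul_inv_cancel, Units.val_one,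
      Matrix.one_mulVec] at this
    rw [inv_inv]
    generalize (↑M⁻¹ : Matrix (Fin 2) (Fin 2) (ZMod 3)).mulVec v = w at this ⊢
    rw [← this]
    group⟩

theorem wit_acts {e : List ℕ × List ℕ} (he : e ∈ witList) :
    permOf e.1 ∈ K0 ∧ ∃ M : GL (Fin 2) (ZMod 3), ActsBy (permOf e.1) M ∧
      (M : Matrix (Fin 2) (Fin 2) (ZMod 3)) = matOf e.2 := by
  have h := List.all_eq_true.mp wit_ok e he
  simp only [witOK, Bool.and_eq_true, List.all_eq_true, List.mem_range, beq_iff_eq,
    bne_iff_ne] at h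
  obtain ⟨⟨hK, hdet⟩, hc⟩ := h
  have hv : validL e.1 = true := by
    simp only [inK, Bool.and_eq_true] at hK
    exact autL_valid hK.1.1
  have hd : (matOf e.2).det ≠ 0 := by
    rw [Matrix.det_fin_two, sub_ne_zero]
    simp only [matOf, Matrix.of_apply, Matrix.cons_val', Matrix.cons_val_zero, Matrix.cons_val_one,
      Matrix.cons_val_fin_one, ← Nat.cast_mul]
    rw [Ne, ZMod.natCast_eq_natCast_iff']
    exact hdet
  refine ⟨inK_mem hK, Matrix.GeneralLinearGroup.mkOfDetNeZero _ hd, fun v => ?_, rfl⟩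
  have key := comp_eq hv (nu_valid (ZMod.val_lt (v 0)) (ZMod.val_lt (v 1)))
    (nu_valid (Nat.mod_lt _ (by norm_num)) (Nat.mod_lt _ (by norm_num))) hv
    (hc _ (ZMod.val_lt (v 0)) _ (ZMod.val_lt (v 1)))
  rw [nu, key, mul_assoc, mul_inv_cancel, mul_one, nu]
  congr 1
  show nuL _ _ = nuL ((matOf e.2).mulVec v 0).val ((matOf e.2).mulVec v 1).val
  simp only [matOf, Matrix.mulVec, dotProduct, Fin.sum_univ_two, Matrix.of_apply, Matrix.cons_val',
    Matrix.cons_val_zero, Matrix.cons_val_one, Matrix.cons_val_fin_one, ZMod.val_add, ZMod.val_mul,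
    ZMod.val_natCast]
  simp [Nat.add_mod, Nat.mul_mod]

theorem wit_mem_lin {l : List ℕ} (h : (witList.any fun e => e.1 == l) = true) :
    permOf l ∈ linGroup := by
  obtain ⟨e, he, hel⟩ := List.any_eq_true.mp h
  obtain ⟨-, M, hM, -⟩ := wit_acts he
  rw [beq_iff_eq] at hel
  exact ⟨M, hel ▸ hM⟩

theorem orbit_pt {p : GolayPt} (hp : p ∈ d0) : ∃ g ∈ K0 ⊓ linGroup, g (pt pos0) = p := by
  obtain ⟨-, -, -, -, hT, hG, hR, hW, hall, -, hlt⟩ := stab_ok
  have hgens : quartetPtGens.all autL = true := List.all_eq_true.mpr fun l hl => by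
    have := List.all_eq_true.mp hG l hl
    simp only [inK, Bool.and_eq_true] at this
    exact this.1.1
  have hK : ∀ l ∈ quartetPtGens, permOf l ∈ K0 ⊓ linGroup := fun l hl => Subgroup.mem_inf.mpr
    ⟨inK_mem (List.all_eq_true.mp hG l hl), wit_mem_lin (List.all_eq_true.mp hW l hl)⟩
  obtain ⟨r, hr, g, hg, hge⟩ := orbit_cert stepMask_sound hT hgens _ hK _
    (OT.mem_keys_of_isSome (List.all_eq_true.mp hall (idx p) (List.mem_filter.mpr
      ⟨List.mem_range.mpr (idx_lt p), mem_ofMask.mp hp⟩)))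
  obtain rfl : r = 2 ^ pos0 := by simpa using List.all_eq_true.mp hR r hr
  refine ⟨g, hg, ?_⟩
  have e : ofMask (2 ^ pos0) = {pt pos0} := by rw [← idx_pt pos0 hlt, single_idx, idx_pt pos0 hlt]
  rw [e, single_idx, Finset.smul_finset_singleton, Finset.singleton_inj] at hge
  exact hge

theorem K0_le_linGroup : K0 ≤ linGroup := by
  classical
  let H := K0 ⊓ linGroup
  have hpos : pt pos0 ∈ d0 := mem_ofMask.mpr (by rw [idx_pt _ stab_ok.2.2.2.2.2.2.2.2.2.2];
                                                 exact stab_ok.2.2.2.2.2.2.2.2.2.1)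
  have horb : d0.card ≤ (MulAction.orbit H (pt pos0)).ncard := by
    rw [← Set.ncard_coe_finset]
    refine Set.ncard_le_ncard (fun p hp => ?_) (Set.finite_range _)
    obtain ⟨g, hg, rfl⟩ := orbit_pt hp
    exact ⟨⟨g, hg⟩, rfl⟩
  have hval : ∀ l ∈ pointStab, validL l = true := fun l hl => by
    have h := List.all_eq_true.mp stab_ok.1 l hl
    simp only [inK, Bool.and_eq_true] at h
    exact autL_valid h.1.1.1
  have hst : 36 ≤ Nat.card (MulAction.stabilizer H (pt pos0)) := by
    let f : Fin pointStab.length → MulAction.stabilizer H (pt pos0) := fun i =>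
      ⟨⟨permOf pointStab[i], by
        have h := List.all_eq_true.mp stab_ok.1 _ (List.getElem_mem i.2)
        rw [Bool.and_eq_true] at h
        exact Subgroup.mem_inf.mpr ⟨inK_mem h.1,
          wit_mem_lin (List.all_eq_true.mp stab_ok.2.2.2.1 _ (List.getElem_mem i.2))⟩⟩, by
        have h := List.all_eq_true.mp stab_ok.1 _ (List.getElem_mem i.2)
        rw [Bool.and_eq_true, beq_iff_eq] at h
        show permOf pointStab[i.1] (pt pos0) = pt pos0
        rw [permOf_pt (hval _ (List.getElem_mem i.2)) stab_ok.2.2.2.2.2.2.2.2.2.2]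
        exact congrArg pt h.2⟩
    have hf : Function.Injective f := by
      intro i j hij
      have := permOf_inj (hval _ (List.getElem_mem i.2)) (hval _ (List.getElem_mem j.2))
        (congrArg (fun x : MulAction.stabilizer H (pt pos0) =>
          ((x : ↥H) : Equiv.Perm GolayPt)) hij)
      exact Fin.ext ((List.Nodup.getElem_inj_iff stab_ok.2.1).mp this)
    calc 36 = Nat.card (Fin pointStab.length) := by rw [Nat.card_fin, stab_ok.2.2.1]
      _ ≤ _ := Nat.card_le_card_of_injective f hf
  have h := Subgroup.index_mul_card (MulAction.stabilizer H (pt pos0))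
  rw [MulAction.index_stabilizer] at h
  have h12 : d0.card = 12 := dodecad0_mem.2
  have hle : Nat.card ↥K0 ≤ Nat.card H := by
    rw [card_K0, ← h]
    exact le_trans (by norm_num) (Nat.mul_le_mul (h12 ▸ horb) hst)
  exact inf_eq_left.mp (Subgroup.eq_of_le_of_card_ge inf_le_left hle)

/-- The matrix by which a stabiliser element acts on the nine elements. -/
noncomputable def toGL : ↥K0 →* GL (Fin 2) (ZMod 3) where
  toFun g := (K0_le_linGroup g.2).choose
  map_one' := actsBy_unique (K0_le_linGroup (1 : ↥K0).2).choose_spec actsBy_one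
  map_mul' g h := actsBy_unique (K0_le_linGroup (g * h).2).choose_spec
    (actsBy_mul (K0_le_linGroup g.2).choose_spec (K0_le_linGroup h.2).choose_spec)

theorem mats_all : ∀ a b c d : ZMod 3, a * d - b * c ≠ 0 →
    (witList.any fun e => ((e.2.getD 0 0 : ZMod 3) == a && (e.2.getD 1 0 : ZMod 3) == b &&
      (e.2.getD 2 0 : ZMod 3) == c && (e.2.getD 3 0 : ZMod 3) == d)) = true := by
  decide +kernel

theorem toGL_surjective : Function.Surjective toGL := by
  intro M
  have hd : (M : Matrix (Fin 2) (Fin 2) (ZMod 3)).det ≠ 0 :=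
    ((Matrix.isUnit_iff_isUnit_det _).mp M.isUnit).ne_zero
  rw [Matrix.det_fin_two] at hd
  obtain ⟨e, he, h⟩ := List.any_eq_true.mp (mats_all _ _ _ _ hd)
  simp only [Bool.and_eq_true, beq_iff_eq] at h
  obtain ⟨hK, N, hN, hNe⟩ := wit_acts he
  refine ⟨⟨_, hK⟩, (actsBy_unique (K0_le_linGroup hK).choose_spec hN).trans (Units.ext ?_)⟩
  rw [hNe]
  obtain ⟨⟨⟨h00, h01⟩, h10⟩, h11⟩ := h
  ext i j
  fin_cases i <;> fin_cases j
  exacts [h00, h01, h10, h11]

theorem card_GL : Nat.card (GL (Fin 2) (ZMod 3)) = 48 := by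
  rw [Matrix.card_GL_field, Fintype.card_eq_nat_card, Nat.card_zmod]
  simp [Fin.prod_univ_two]

/-- The order, the quotient and transitivity, for every pair of dodecad and quartet. -/
theorem structure_stab {d : Finset GolayPt} (hd : d ∈ dodecads) {Q : Finset (Finset GolayPt)}
    (hQ : Q ∈ quartets d) :
    Nat.card ↥(MulAction.stabilizer M24 d ⊓ MulAction.stabilizer M24 Q) = 432 ∧
    (∃ (N : Subgroup ↥(MulAction.stabilizer M24 d ⊓ MulAction.stabilizer M24 Q)) (_ : N.Normal),
      Nat.card N = 9 ∧ Nonempty (↥(MulAction.stabilizer M24 d ⊓ MulAction.stabilizer M24 Q) ⧸ N ≃*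
        GL (Fin 2) (ZMod 3))) ∧
    ∀ p ∈ d, ∀ q ∈ d, ∃ g ∈ (MulAction.stabilizer M24 d ⊓ MulAction.stabilizer M24 Q),
      ((g : ↥M24) : Equiv.Perm GolayPt) p = q := by
  obtain ⟨g, hg, hg1, hg2⟩ := move hd hQ
  let e := stabEquiv hg hg1 hg2
  have hcard : Nat.card ↥(MulAction.stabilizer M24 d ⊓ MulAction.stabilizer M24 Q) = 432 := by
    rw [Nat.card_congr e.toEquiv, card_K0]
  refine ⟨hcard, ?_, ?_⟩
  · let f := toGL.comp e.toMonoidHom
    have hf : Function.Surjective f := toGL_surjective.comp e.surjective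
    refine ⟨f.ker, inferInstance, ?_, ⟨QuotientGroup.quotientKerEquivOfSurjective f hf⟩⟩
    have h := Subgroup.card_eq_card_quotient_mul_card_subgroup f.ker
    rw [hcard, Nat.card_congr (QuotientGroup.quotientKerEquivOfSurjective f hf).toEquiv,
      card_GL] at h
    omega
  · intro p hp q hq
    have hmem : ∀ x ∈ d, g⁻¹ x ∈ d0 := fun x hx => by
      rw [← hg1] at hx
      exact Finset.inv_smul_mem_iff.mpr hx
    obtain ⟨a, ha, hap⟩ := orbit_pt (hmem p hp)
    obtain ⟨b, hb, hbq⟩ := orbit_pt (hmem q hq)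
    let k : ↥K0 := ⟨b * a⁻¹, mul_mem hb.1 (inv_mem ha.1)⟩
    refine ⟨(e.symm k : ↥M24), (e.symm k).2, ?_⟩
    show (g * (b * a⁻¹) * g⁻¹) p = q
    simp only [Equiv.Perm.mul_apply]
    rw [← hap, Equiv.Perm.coe_inv a, Equiv.symm_apply_apply, hbq, Equiv.Perm.coe_inv,
      Equiv.apply_symm_apply]

/-! ### The five orbits -/

/-- An invariant separating the five orbits. -/
def rel (Q X : Finset (Finset GolayPt)) : ℕ := ∑ t ∈ Q, ∑ u ∈ X, 4 ^ (t ∩ u).card

/-- The invariant on keys. -/
def relK (k : ℕ) : ℕ :=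
  ((masksOf 4 quartet0).map fun a => ((masksOf 4 k).map fun b => 4 ^ popc (a &&& b)).sum).sum

theorem rel_smul (g : Equiv.Perm GolayPt) (Q X : Finset (Finset GolayPt)) :
    rel (g • Q) (g • X) = rel Q X := by
  have hinj : ∀ S : Finset (Finset GolayPt), Set.InjOn (fun t => g • t) (↑S : Set (Finset GolayPt)) :=
    fun S => (MulAction.injective g).injOn
  simp only [rel, Finset.smul_finset_def (s := Q), Finset.smul_finset_def (s := X),
    Finset.sum_image (hinj _)]
  exact Finset.sum_congr rfl fun t _ => Finset.sum_congr rfl fun u _ => by rw [inter_card_smul]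

theorem sum_decSets {k : ℕ} (hk : k ∈ quartetTree.keys) (f : Finset GolayPt → ℕ) :
    ∑ t ∈ decSets 4 k, f t = ((masksOf 4 k).map fun a => f (ofMask a)).sum := by
  have h := List.all_eq_true.mp keys_ok k hk
  simp only [Bool.and_eq_true] at h
  rw [decSets, Finset.sum_image, List.sum_toFinset _ (sortedB_nodup h.1.1.1)]
  intro x hx y hy hxy
  exact ofMask_inj (masksOf_lt _ _ x (List.mem_toFinset.mp hx))
    (masksOf_lt _ _ y (List.mem_toFinset.mp hy)) hxy

theorem rel_key {k : ℕ} (hk : k ∈ quartetTree.keys) : rel Q0 (decSets 4 k) = relK k := by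
  rw [rel, sum_decSets (OT.mem_keys_of_isSome tree_ok.2.2.2.2.2.2), relK]
  congr 1
  refine List.map_congr_left fun a _ => ?_
  rw [sum_decSets hk]
  congr 1
  refine List.map_congr_left fun b _ => ?_
  rw [← ofMask_and, card_ofMask]

theorem sub_ok : quartetSubTree.check (stepSets 4) quartetSubGens quartetSubRoots = true ∧
    quartetSubGens.all inK = true ∧
    (quartetTree.keys.all fun k => (quartetSubTree.find k).isSome) = true ∧
    (quartetSubRoots.map relK = [268, 106, 88, 79, 61]) ∧
    quartetSubRoots.head? = some quartet0 ∧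
    (quartetSubRoots.all fun r => (quartetTree.find r).isSome) = true ∧
    ((quartetTree.keys.filter fun k => relK k == 106).length = 12 ∧
    (quartetTree.keys.filter fun k => relK k == 88).length = 27 ∧
    (quartetTree.keys.filter fun k => relK k == 79).length = 72 ∧
    (quartetTree.keys.filter fun k => relK k == 61).length = 108) := by
  decide +kernel

theorem reach {Q : Finset (Finset GolayPt)} (hQ : Q ∈ quartets d0) :
    ∃ r ∈ quartetSubRoots, rel Q0 Q = relK r ∧ ∃ g ∈ K0, g • decSets 4 r = Q := by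
  obtain ⟨k, hk, rfl⟩ := exists_key hQ
  obtain ⟨hT, hG, hall, -, -, hroots, -⟩ := sub_ok
  have hgens : quartetSubGens.all autL = true := List.all_eq_true.mpr fun l hl => by
    have := List.all_eq_true.mp hG l hl
    simp only [inK, Bool.and_eq_true] at this
    exact this.1.1
  obtain ⟨r, hr, g, hg, hge⟩ := orbit_cert (stepSets_sound 4) hT hgens K0
    (fun l hl => inK_mem (List.all_eq_true.mp hG l hl)) k
    (OT.mem_keys_of_isSome (List.all_eq_true.mp hall k hk))
  refine ⟨r, hr, ?_, g, hg, hge⟩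
  calc rel Q0 (decSets 4 k) = rel (g • Q0) (g • decSets 4 r) := by
        rw [hge, (mem_K0.mp hg).2.2]
    _ = relK r := by
        rw [rel_smul, rel_key (OT.mem_keys_of_isSome (List.all_eq_true.mp hroots r hr))]

set_option maxHeartbeats 800000 in
/-- The five orbits of a quartet stabiliser on the quartets. -/
theorem orbits_stab {d : Finset GolayPt} (hd : d ∈ dodecads) {Q : Finset (Finset GolayPt)}
    (hQ : Q ∈ quartets d) :
    ∃ X : Fin 4 → Finset (Finset GolayPt), (∀ i, X i ∈ quartets d) ∧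
      (∀ i, (MulAction.orbit ↥(MulAction.stabilizer M24 d ⊓ MulAction.stabilizer M24 Q) (X i)).ncard
        = [12, 27, 72, 108].getD i.1 0) ∧
      quartets d = {Q} ∪
        MulAction.orbit ↥(MulAction.stabilizer M24 d ⊓ MulAction.stabilizer M24 Q) (X 0) ∪
        MulAction.orbit ↥(MulAction.stabilizer M24 d ⊓ MulAction.stabilizer M24 Q) (X 1) ∪
        MulAction.orbit ↥(MulAction.stabilizer M24 d ⊓ MulAction.stabilizer M24 Q) (X 2) ∪
        MulAction.orbit ↥(MulAction.stabilizer M24 d ⊓ MulAction.stabilizer M24 Q) (X 3) := by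
  obtain ⟨g, hg, hg1, hg2⟩ := move hd hQ
  obtain ⟨hT, hG, hall, hmap, hhead, hroots, hcnt⟩ := sub_ok
  have hlen : quartetSubRoots.length = 5 := by simpa using congrArg List.length hmap
  have hkey : ∀ i : Fin 4, quartetSubRoots.getD (i.1 + 1) 0 ∈ quartetTree.keys := fun i =>
    OT.mem_keys_of_isSome (List.all_eq_true.mp hroots _ (by
      rw [List.getD_eq_getElem _ _ (by omega)]; exact List.getElem_mem _))
  have hmemd : ∀ r ∈ quartetTree.keys, g • decSets 4 r ∈ quartets d := fun r hr => by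
    have := smul_quartet hg (key_spec hr)
    rwa [hg1] at this
  let X : Fin 4 → Finset (Finset GolayPt) := fun i =>
    g • decSets 4 (quartetSubRoots.getD (i.1 + 1) 0)
  have hX : ∀ i, X i ∈ quartets d := fun i => hmemd _ (hkey i)
  have hrel : ∀ r ∈ quartetTree.keys, rel Q (g • decSets 4 r) = relK r := fun r hr => by
    rw [← hg2, rel_smul, rel_key hr]
  have hset : ∀ r ∈ quartetSubRoots, MulAction.orbit
      ↥(MulAction.stabilizer M24 d ⊓ MulAction.stabilizer M24 Q) (g • decSets 4 r) =
      {Z | Z ∈ quartets d ∧ rel Q Z = relK r} := by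
    intro r hr
    have hr' := OT.mem_keys_of_isSome (List.all_eq_true.mp hroots r hr)
    ext Z
    constructor
    · rintro ⟨k, rfl⟩
      have h1 : ((k : ↥M24) : Equiv.Perm GolayPt) • d = d := k.2.1
      have h2 : ((k : ↥M24) : Equiv.Perm GolayPt) • Q = Q := k.2.2
      show ((k : ↥M24) : Equiv.Perm GolayPt) • g • decSets 4 r ∈ quartets d ∧ _
      refine ⟨?_, ?_⟩
      · have := smul_quartet (k : ↥M24).2 (hmemd r hr')
        rwa [h1] at this
      · show rel Q (((k : ↥M24) : Equiv.Perm GolayPt) • g • decSets 4 r) = _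
        have h3 := rel_smul ((k : ↥M24) : Equiv.Perm GolayPt) Q (g • decSets 4 r)
        generalize hW : ((k : ↥M24) : Equiv.Perm GolayPt) • g • decSets 4 r = W at h3 ⊢
        rw [h2] at h3
        rw [h3, hrel r hr']
    · rintro ⟨hZ, hZr⟩
      have hZ0 : g⁻¹ • Z ∈ quartets d0 := by
        have := smul_quartet (inv_mem hg) hZ
        rwa [← hg1, inv_smul_smul] at this
      obtain ⟨r', hr'', hrr, k, hk, hke⟩ := reach hZ0
      have : relK r' = relK r := by
        rw [← hrr, ← hZr, ← hg2, ← rel_smul g Q0 (g⁻¹ • Z), smul_inv_smul]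
      rw [List.inj_on_of_nodup_map (f := relK) (by rw [hmap]; decide) hr'' hr this] at hke
      refine ⟨(stabEquiv hg hg1 hg2).symm ⟨k, hk⟩, ?_⟩
      show (g * k * g⁻¹) • g • decSets 4 r = Z
      rw [mul_smul, inv_smul_smul, mul_smul, hke, smul_inv_smul]
  have hvals : ∀ i : Fin 4, relK (quartetSubRoots.getD (i.1 + 1) 0) =
      [106, 88, 79, 61].getD i.1 0 := by
    intro i
    have h := congrArg (fun L : List ℕ => L[i.1 + 1]?) hmap
    simp only [List.getElem?_map] at h
    rw [List.getElem?_eq_getElem (by omega)] at h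
    rw [List.getD_eq_getElem _ _ (by omega)]
    fin_cases i <;> simpa using h
  have hmem : ∀ i : Fin 4, quartetSubRoots.getD (i.1 + 1) 0 ∈ quartetSubRoots := fun i => by
    rw [List.getD_eq_getElem _ _ (by omega)]; exact List.getElem_mem _
  refine ⟨X, hX, fun i => ?_, ?_⟩
  · rw [hset _ (hmem i), hvals i]
    have hq : {Z | Z ∈ quartets d ∧ rel Q Z = [106, 88, 79, 61].getD i.1 0} =
        (fun k => g • decSets 4 k) '' ↑((quartetTree.keys.filter
          fun k => relK k == [106, 88, 79, 61].getD i.1 0).toFinset) := by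
      ext Z
      simp only [Set.mem_ofPred_eq, Set.mem_image, List.coe_toFinset, List.mem_filter, beq_iff_eq]
      constructor
      · rintro ⟨hZ, hv⟩
        have hZ0 : g⁻¹ • Z ∈ quartets d0 := by
          have := smul_quartet (inv_mem hg) hZ
          rwa [← hg1, inv_smul_smul] at this
        obtain ⟨k, hk, hke⟩ := exists_key hZ0
        refine ⟨k, ⟨hk, ?_⟩, by rw [hke, smul_inv_smul]⟩
        rw [← hv, ← hrel k hk, hke, smul_inv_smul]
      · rintro ⟨k, ⟨hk, hv⟩, rfl⟩
        exact ⟨hmemd k hk, by rw [hrel k hk, hv]⟩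
    rw [hq, Set.InjOn.ncard_image, Set.ncard_coe_finset,
      List.toFinset_card_of_nodup ((sortedB_nodup tree_ok.2.2.2.2.1).filter _)]
    · obtain ⟨c1, c2, c3, c4⟩ := hcnt
      fin_cases i
      exacts [c1, c2, c3, c4]
    · intro a ha b hb h
      rw [List.coe_toFinset] at ha hb
      exact decSets_injOn (List.mem_filter.mp ha).1 (List.mem_filter.mp hb).1 (smul_left_cancel g h)
  · have h0 : quartet0 ∈ quartetSubRoots := List.mem_of_mem_head? (by rw [hhead]; rfl)
    refine Set.Subset.antisymm (fun Z hZ => ?_) ?_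
    · have hZ0 : g⁻¹ • Z ∈ quartets d0 := by
        have := smul_quartet (inv_mem hg) hZ
        rwa [← hg1, inv_smul_smul] at this
      obtain ⟨r, hr, hrr, k, hk, hke⟩ := reach hZ0
      have hZr : Z ∈ MulAction.orbit ↥(MulAction.stabilizer M24 d ⊓ MulAction.stabilizer M24 Q)
          (g • decSets 4 r) := by
        rw [hset r hr]
        refine ⟨hZ, ?_⟩
        rw [← hg2, ← hrr, ← rel_smul g Q0 (g⁻¹ • Z), smul_inv_smul]
      simp only [quartetSubRoots, List.mem_cons, List.not_mem_nil, or_false] at hr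
      rcases hr with rfl | rfl | rfl | rfl | rfl
      · left; left; left; left
        have hk0 : k • Q0 = g⁻¹ • Z := hke
        rw [(mem_K0.mp hk).2.2, eq_inv_smul_iff, hg2] at hk0
        exact hk0.symm
      exacts [.inl (.inl (.inl (.inr hZr))), .inl (.inl (.inr hZr)), .inl (.inr hZr), .inr hZr]
    · have sub : ∀ i, MulAction.orbit ↥(MulAction.stabilizer M24 d ⊓ MulAction.stabilizer M24 Q)
          (X i) ⊆ quartets d := fun i => by
        rw [hset _ (hmem i)]; exact fun Z hZ => hZ.1
      simp only [Set.union_subset_iff, Set.singleton_subset_iff]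
      exact ⟨⟨⟨⟨hQ, sub 0⟩, sub 1⟩, sub 2⟩, sub 3⟩

end Cfsg.Agent.Quartet
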