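/-
`Co0` is transitive on pairs of vectors of squared length 48 with inner product -32.
-/
import Cfsg.Agent.Sporadic.LeechPairData
import Cfsg.Agent.Sporadic.OctadSub
import Cfsg.Agent.Sporadic.QuartetStab

set_option autoImplicit false

namespace Cfsg.Agent.LeechPair

open scoped Pointwise
open Cfsg Cfsg.Agent.Leech Cfsg.Agent.LeechWord
open Cfsg.Agent.M24Geo (idx pt ofMask octad0 dodecad0 trans_tuple octad_eq_of_five)

theorem none_eq : (none : GolayPt) = pt 0 := rfl

/-- Transitivity on three ordered points of an octad, with the octad. -/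
theorem exists_three_in {o : Finset GolayPt} (ho : o ∈ octads) {p q r : GolayPt} (hp : p ∈ o)
    (hq : q ∈ o) (hr : r ∈ o) (hpq : p ≠ q) (hpr : p ≠ r) (hqr : q ≠ r) :
    ∃ g ∈ M24, g • ofMask octad0 = o ∧ g (pt 0) = p ∧ g (pt 1) = q ∧ g (pt 2) = r := by
  obtain ⟨t, hts, htc⟩ := Finset.exists_subset_card_eq (s := ((o.erase p).erase q).erase r) (n := 2)
    (by
      rw [Finset.card_erase_of_mem (by simp [hpr.symm, hqr.symm, hr]),
        Finset.card_erase_of_mem (by simp [hpq.symm, hq]), Finset.card_erase_of_mem hp, ho.2]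
      norm_num)
  obtain ⟨a, b, hab, rfl⟩ := Finset.card_eq_two.mp htc
  simp only [Finset.insert_subset_iff, Finset.singleton_subset_iff, Finset.mem_erase] at hts
  obtain ⟨⟨har, haq, hap, ha⟩, hbr, hbq, hbp, hb⟩ := hts
  let f : ℕ → GolayPt := fun i => [p, q, r, a, b].getD i none
  obtain ⟨g, hg, hgf⟩ := trans_tuple 5 le_rfl f (by
    intro i hi j hj hij
    have hnd : [p, q, r, a, b].Nodup := by
      simp [hpq, hpr, hqr, hap.symm, hbp.symm, haq.symm, hbq.symm, har.symm, hbr.symm, hab]
    simp only [f] at hij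
    rw [List.getD_eq_getElem _ _ (by simpa using hi), List.getD_eq_getElem _ _ (by simpa using hj)] at hij
    exact (List.Nodup.getElem_inj_iff hnd).mp hij)
  refine ⟨g, hg, ?_, hgf 0 (by norm_num), hgf 1 (by norm_num), hgf 2 (by norm_num)⟩
  refine octad_eq_of_five (s := g • ofMask 31) (M24Geo.smul_mem_words hg M24Geo.octad0_mem) ho
    (Finset.smul_finset_subset_smul_finset ((M24Geo.ofMask_subset_iff (by norm_num) (by decide)).mpr
      (by decide))) ?_ (by rw [Finset.card_smul_finset, M24Geo.card_ofMask]; decide)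
  intro x hx
  rw [show ofMask 31 = ({pt 0, pt 1, pt 2, pt 3, pt 4} : Finset GolayPt) by decide +kernel] at hx
  simp only [Finset.smul_finset_insert, Finset.smul_finset_singleton, Equiv.Perm.smul_def,
    hgf 0 (by norm_num), hgf 1 (by norm_num), hgf 2 (by norm_num), hgf 3 (by norm_num),
    hgf 4 (by norm_num), Finset.mem_insert, Finset.mem_singleton] at hx
  rcases hx with rfl | rfl | rfl | rfl | rfl <;> assumption

/-! ### The five representatives -/

/-- The coordinates of `(5, 1²³)`. -/
def listU : List ℤ := 5 :: List.replicate 23 1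

/-- The coordinates of `(4, -4, 0²²)`. -/
def listA : List ℤ := 4 :: -4 :: List.replicate 22 0

/-- The vectors considered. -/
def InA (a : leechLattice) : Prop :=
  sqNorm (a : GolayPt → ℤ) = 32 ∧ dotInt vecU5 (a : GolayPt → ℤ) = 16

theorem words_ok : (word2.all St.ok && word3.all St.ok && word4.all St.ok && word5.all St.ok) = true ∧
    ([(listU, listU), (listA, rep2)].all fun e => actW word2 e.1 == e.2) = true ∧
    ([(listU, listU), (listA, rep3)].all fun e => actW word3 e.1 == e.2) = true ∧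
    ([(listU, listU), (listA, rep4)].all fun e => actW word4 e.1 == e.2) = true ∧
    ([(listU, listU), (listA, rep5)].all fun e => actW word5 e.1 == e.2) = true := by
  decide +kernel

theorem listU_eq : vecU5 = ofL listU := by
  funext p; revert p; decide +kernel

theorem listA_mem : ofL listA ∈ leechLattice := by
  refine Cfsg.Agent.Leech.mem_of_inLeechB ?_
  decide +kernel

/-- The standard vector `(4, -4, 0²²)`. -/
def A0 : leechLattice := ⟨ofL listA, listA_mem⟩

theorem reach_of_word {W : List St} (hW : W.all St.ok = true) {rep : List ℤ}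
    (hl : ([(listU, listU), (listA, rep)].all fun e => actW W e.1 == e.2) = true)
    {a : leechLattice} {σ : Equiv.Perm GolayPt} (hσ : σ ∈ M24) (h0 : σ none = none)
    (hrep : a.1 ∘ σ = ofL rep) : ∃ g : Co0, g • U5 = U5 ∧ g • a = A0 := by
  obtain ⟨g, hg⟩ := exists_of_certs hW hl
  have hgU : g • U5 = U5 := Subtype.ext (by
    rw [hg (listU, listU) (by simp) U5 listU_eq]
    exact listU_eq.symm)
  have hgA : (g • A0).1 = ofL rep := hg (listA, rep) (by simp) A0 rfl
  have hp : permEl hσ • a = g • A0 := Subtype.ext (by rw [permEl_smul, hrep, hgA])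
  refine ⟨g⁻¹ * permEl hσ, ?_, by rw [mul_smul, hp, inv_smul_smul]⟩
  have : permEl hσ • U5 = U5 := Subtype.ext (vecU5_comp h0)
  rw [mul_smul, this, inv_smul_eq_iff, hgU]

theorem rep_eq : (∀ p, evenForm (ofMask oct2) ∅ p = ofL rep2 p) ∧
    (∀ p, evenForm (ofMask oct3) {pt posP, pt posQ} p = ofL rep3 p) ∧
    (∀ p, oddForm (ofMask dod4) none p = ofL rep4 p) ∧
    (∀ p, oddForm (ofMask oct5) (pt pos5) p = ofL rep5 p) := by
  decide +kernel

theorem cfg_ok : M24Geo.isWord 8 oct2 = true ∧ (none : GolayPt) ∉ ofMask oct2 ∧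
    M24Geo.isWord 8 oct3 = true ∧ (none : GolayPt) ∈ ofMask oct3 ∧ pt posP ∈ ofMask oct3 ∧
    pt posQ ∈ ofMask oct3 ∧ pt posP ≠ none ∧ pt posQ ≠ none ∧ pt posP ≠ pt posQ ∧
    M24Geo.isWord 12 dod4 = true ∧ (none : GolayPt) ∈ ofMask dod4 ∧
    M24Geo.isWord 8 oct5 = true ∧ (none : GolayPt) ∉ ofMask oct5 ∧ pt pos5 ∈ ofMask oct5 := by
  decide +kernel

theorem fix_none {g g' : Equiv.Perm GolayPt} {b : GolayPt} (h : g b = none) (h' : g' b = none) :
    (g * g'⁻¹) none = none := by
  rw [Equiv.Perm.mul_apply, ← h', Equiv.Perm.coe_inv, Equiv.symm_apply_apply, h]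
  exact h'.symm

theorem map_pt {g g' : Equiv.Perm GolayPt} {b x y : GolayPt} (h : g b = x) (h' : g' b = y) :
    (g * g'⁻¹) y = x := by
  rw [Equiv.Perm.mul_apply, ← h', Equiv.Perm.coe_inv, Equiv.symm_apply_apply, h]

theorem map_set {g g' : Equiv.Perm GolayPt} {b x y : Finset GolayPt} (h : g • b = x)
    (h' : g' • b = y) : (g * g'⁻¹) • y = x := by
  rw [mul_smul, ← h', inv_smul_smul, h]

theorem mem_octads_of {m : ℕ} (h : M24Geo.isWord 8 m = true) : ofMask m ∈ octads :=
  M24Geo.mem_wordsOfWeight_iff.mpr ⟨m, h, rfl⟩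

/-- Every such vector is moved to the standard one by an automorphism fixing `(5, 1²³)`. -/
theorem reach (a : leechLattice) (ha : InA a) : ∃ g : Co0, g • U5 = U5 ∧ g • a = A0 := by
  classical
  obtain ⟨hN, hdot⟩ := ha
  obtain ⟨hw, l2, l3, l4, l5⟩ := words_ok
  simp only [Bool.and_eq_true] at hw
  obtain ⟨c2, c2', c3, c3n, c3p, c3q, c3pn, c3qn, c3pq, c4, c4n, c5, c5n, c5j⟩ := cfg_ok
  rw [dotInt_vecU5] at hdot
  rcases minimal_cases a.2 hN with
    ⟨p, q, hpq, hxp, hxq, hrest⟩ | ⟨o, ho, M, hM, hx⟩ | ⟨T, hT, j, hTc, hx⟩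
  · have hs : ∑ r, a.1 r = a.1 p + a.1 q := by
      rw [← Finset.sum_pair hpq]
      refine (Finset.sum_subset (Finset.subset_univ _) fun r _ hr => ?_).symm
      simp only [Finset.mem_insert, Finset.mem_singleton, not_or] at hr
      exact hrest r hr.1 hr.2
    rw [hs] at hdot
    -- one of the two positions is the special one
    have key : ∀ q, q ≠ none → a.1 none = 4 → a.1 q = -4 →
        (∀ r, r ≠ none → r ≠ q → a.1 r = 0) → ∃ g : Co0, g • U5 = U5 ∧ g • a = A0 := by
      intro q hq h4 hq4 hr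
      obtain ⟨σ, hσ, hσf⟩ := trans_tuple 2 (by norm_num) (fun i => if i = 0 then none else q) (by
        intro i hi j hj hij
        interval_cases i <;> interval_cases j <;> simp_all)
      have h0 : σ none = none := hσf 0 (by norm_num)
      have h1 : σ (pt 1) = q := hσf 1 (by norm_num)
      refine ⟨permEl hσ, Subtype.ext (vecU5_comp h0), Subtype.ext ?_⟩
      funext r
      show a.1 (σ r) = ofL listA r
      by_cases hr0 : r = none
      · subst hr0; rw [h0, h4]; rfl
      by_cases hr1 : r = pt 1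
      · subst hr1; rw [h1, hq4]; decide +kernel
      rw [hr _ (fun e => hr0 (σ.injective (e.trans h0.symm)))
        (fun e => hr1 (σ.injective (e.trans h1.symm)))]
      have : ∀ r : GolayPt, r ≠ none → r ≠ pt 1 → ofL listA r = 0 := by decide +kernel
      exact (this r hr0 hr1).symm
    by_cases hp0 : p = none
    · subst hp0
      exact key q (Ne.symm hpq) (by omega) (by omega) hrest
    by_cases hq0 : q = none
    · subst hq0
      exact key p hp0 (by omega) (by omega) fun r h h' => hrest r h' h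
    · have := hrest none (Ne.symm hp0) (Ne.symm hq0)
      omega
  · have hs := sum_evenForm hM
    rw [hx, hs, ho.2] at hdot
    by_cases hn : (none : GolayPt) ∈ o
    · by_cases hnM : (none : GolayPt) ∈ M
      · simp only [evenForm, hnM, if_true] at hdot
        omega
      simp only [evenForm, hnM, hn, if_true, if_false] at hdot
      obtain ⟨p, q, hpq, rfl⟩ := Finset.card_eq_two.mp (show M.card = 2 by omega)
      simp only [Finset.insert_subset_iff, Finset.singleton_subset_iff] at hM
      simp only [Finset.mem_insert, Finset.mem_singleton, not_or] at hnM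
      obtain ⟨g, hg, hgo, hg0, hgp, hgq⟩ :=
        exists_three_in ho hn hM.1 hM.2 hnM.1 hnM.2 hpq
      obtain ⟨g', hg', hgo', hg0', hgp', hgq'⟩ := exists_three_in (mem_octads_of c3) c3n c3p c3q
        (Ne.symm c3pn) (Ne.symm c3qn) c3pq
      refine reach_of_word hw.1.1.2 l3 (mul_mem hg (inv_mem hg')) (fix_none hg0 hg0') ?_
      have e := evenForm_comp (ofMask oct3) {pt posP, pt posQ} (g * g'⁻¹)
      rw [map_set hgo hgo', Finset.smul_finset_insert, Finset.smul_finset_singleton,
        Equiv.Perm.smul_def, Equiv.Perm.smul_def, map_pt hgp hgp', map_pt hgq hgq', ← hx] at e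
      exact e.trans (funext rep_eq.2.1)
    · have hnM : (none : GolayPt) ∉ M := fun h => hn (hM h)
      simp only [evenForm, hnM, hn, if_false] at hdot
      obtain rfl : M = ∅ := Finset.card_eq_zero.mp (by omega)
      obtain ⟨g, hg, hgo, hg0⟩ := OctadSub.exists_one_out ho hn
      obtain ⟨g', hg', hgo', hg0'⟩ := OctadSub.exists_one_out (mem_octads_of c2) c2'
      refine reach_of_word hw.1.1.1 l2 (mul_mem hg (inv_mem hg')) (fix_none hg0 hg0') ?_
      have e := evenForm_comp (ofMask oct2) ∅ (g * g'⁻¹)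
      rw [map_set hgo hgo', Finset.smul_finset_empty, ← hx] at e
      exact e.trans (funext rep_eq.1)
  · rw [hx, sum_oddForm] at hdot
    by_cases hn : (none : GolayPt) ∈ T <;> by_cases hj : j = none
    · subst hj
      simp only [oddForm, hn, if_true] at hdot
      have hTd : T ∈ dodecads := ⟨hT, by omega⟩
      obtain ⟨g, hg, hgd⟩ := M24Geo.dodecad_trans hTd
      obtain ⟨g', hg', hgd'⟩ := M24Geo.dodecad_trans
        (show ofMask dod4 ∈ dodecads from M24Geo.mem_wordsOfWeight_iff.mpr ⟨_, c4, rfl⟩)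
      obtain ⟨k, hk, hkp⟩ := Quartet.orbit_pt (p := g⁻¹ none)
        (Finset.inv_smul_mem_iff.mpr (hgd ▸ hn))
      obtain ⟨k', hk', hkp'⟩ := Quartet.orbit_pt (p := g'⁻¹ none)
        (Finset.inv_smul_mem_iff.mpr (hgd' ▸ c4n))
      have hk1 := Quartet.mem_K0.mp hk.1
      have hk1' := Quartet.mem_K0.mp hk'.1
      have e0 : (g * k) (pt Quartet.pos0) = none := by
        rw [Equiv.Perm.mul_apply, hkp, Equiv.Perm.coe_inv, Equiv.apply_symm_apply]
      have e0' : (g' * k') (pt Quartet.pos0) = none := by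
        rw [Equiv.Perm.mul_apply, hkp', Equiv.Perm.coe_inv, Equiv.apply_symm_apply]
      refine reach_of_word hw.1.2 l4
        (mul_mem (mul_mem hg hk1.1) (inv_mem (mul_mem hg' hk1'.1))) (fix_none e0 e0') ?_
      have e := oddForm_comp (ofMask dod4) none ((g * k) * (g' * k')⁻¹)
      rw [map_set (b := Quartet.d0) (x := T) (y := ofMask dod4) (by rw [mul_smul, hk1.2.1]; exact hgd)
        (by rw [mul_smul, hk1'.2.1]; exact hgd'), fix_none e0 e0', ← hx] at e
      exact e.trans (funext rep_eq.2.2.1)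
    · simp only [oddForm, hn, if_true, Ne.symm hj, if_false] at hdot
      split_ifs at hdot
      · omega
      · have : T.card ≠ 0 := Finset.card_ne_zero.mpr ⟨none, hn⟩
        omega
    · subst hj
      simp only [oddForm, hn, if_false, if_true] at hdot
      omega
    · simp only [oddForm, hn, Ne.symm hj, if_false] at hdot
      by_cases hjT : j ∈ T
      · simp only [hjT, if_true] at hdot
        obtain ⟨g, hg, hgo, hgj, hg0⟩ := OctadSub.exists_in_out (o := T) ⟨hT, by omega⟩ hjT hn
        obtain ⟨g', hg', hgo', hgj', hg0'⟩ := OctadSub.exists_in_out (mem_octads_of c5) c5j c5n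
        refine reach_of_word hw.2 l5 (mul_mem hg (inv_mem hg')) (fix_none hg0 hg0') ?_
        have e := oddForm_comp (ofMask oct5) (pt pos5) (g * g'⁻¹)
        rw [map_set hgo hgo', map_pt hgj hgj', ← hx] at e
        exact e.trans (funext rep_eq.2.2.2)
      · simp only [hjT, if_false] at hdot
        omega

theorem dot_bilin (x y z : GolayPt → ℤ) :
    dotInt x (y + z) = dotInt x y + dotInt x z := by
  simp [dotInt, mul_add, Finset.sum_add_distrib]

/-- The standard form of a pair. -/
theorem exists_to_std (v w : leechLattice) (hv : sqNorm (v : GolayPt → ℤ) = 48)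
    (hw : sqNorm (w : GolayPt → ℤ) = 48)
    (hvw : dotInt (v : GolayPt → ℤ) (w : GolayPt → ℤ) = -32) :
    ∃ g : Co0, g • v = U5 ∧ g • w = A0 - U5 := by
  obtain ⟨g, hg⟩ := exists_to_U5 v hv
  have hvv : dotInt (v : GolayPt → ℤ) (v : GolayPt → ℤ) = 48 := by
    rw [← hv]; simp [dotInt, sqNorm, sq]
  have h1 : dotInt vecU5 ((g • (v + w) : leechLattice) : GolayPt → ℤ) = 16 := by
    have := co0_dotInt g v (v + w)
    rw [hg] at this
    refine this.trans ?_
    rw [AddSubgroup.coe_add, dot_bilin, hvv, hvw]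
    norm_num
  have h2 : sqNorm ((g • (v + w) : leechLattice) : GolayPt → ℤ) = 32 := by
    rw [show sqNorm ((g • (v + w) : leechLattice) : GolayPt → ℤ) =
      sqNorm ((v + w : leechLattice) : GolayPt → ℤ) from g.2.2 (v + w)]
    have hsum : sqNorm ((v + w : leechLattice) : GolayPt → ℤ) =
        sqNorm v.1 + 2 * dotInt v.1 w.1 + sqNorm w.1 := by
      simp only [sqNorm, dotInt, AddSubgroup.coe_add, Pi.add_apply, Finset.mul_sum,
        ← Finset.sum_add_distrib]
      exact Finset.sum_congr rfl fun p _ => by ring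
    rw [hsum, hv, hw, hvw]
    norm_num
  obtain ⟨k, hkU, hka⟩ := reach (g • (v + w)) ⟨h2, h1⟩
  refine ⟨k * g, by rw [mul_smul, hg, hkU], ?_⟩
  rw [co0_add, hg, co0_add, hkU] at hka
  rw [mul_smul, eq_sub_iff_add_eq', hka]

/-- Transitivity on the pairs. -/
theorem exists_pair_move (v w v' w' : leechLattice) (hv : sqNorm (v : GolayPt → ℤ) = 48)
    (hw : sqNorm (w : GolayPt → ℤ) = 48)
    (hvw : dotInt (v : GolayPt → ℤ) (w : GolayPt → ℤ) = -32)
    (hv' : sqNorm (v' : GolayPt → ℤ) = 48) (hw' : sqNorm (w' : GolayPt → ℤ) = 48)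
    (hvw' : dotInt (v' : GolayPt → ℤ) (w' : GolayPt → ℤ) = -32) :
    ∃ g : Co0, g • v = v' ∧ g • w = w' := by
  obtain ⟨g, hg1, hg2⟩ := exists_to_std v w hv hw hvw
  obtain ⟨g', hg1', hg2'⟩ := exists_to_std v' w' hv' hw' hvw'
  exact ⟨g'⁻¹ * g, by rw [mul_smul, hg1, ← hg1', inv_smul_smul],
    by rw [mul_smul, hg2, ← hg2', inv_smul_smul]⟩

end Cfsg.Agent.LeechPair
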