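/-
The 100 minimal vectors attached to a pair of vectors of squared length 48 with inner product -32.
-/
import Cfsg.Agent.Sporadic.LeechPair
import Cfsg.Agent.Sporadic.LeechHSData

set_option autoImplicit false

namespace Cfsg.Agent.LeechHS

open scoped Pointwise
open Cfsg Cfsg.Agent.Leech Cfsg.Agent.LeechWord Cfsg.Agent.LeechPair
open Cfsg.Agent.M24Geo (idx pt ofMask trans_tuple)

/-- The 100 vectors of a pair. -/
abbrev pts (v w : leechLattice) : Set leechLattice :=
  {x : leechLattice | sqNorm (x : GolayPt → ℤ) = 32 ∧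
    dotInt (v : GolayPt → ℤ) (x : GolayPt → ℤ) = 24 ∧
    dotInt (w : GolayPt → ℤ) (x : GolayPt → ℤ) = -24}

/-- The second vector of the standard pair. -/
def W0 : leechLattice := A0 - U5

theorem W0_val : W0.1 = ofL listA - vecU5 := rfl

theorem dotInt_listA (x : GolayPt → ℤ) :
    dotInt (ofL listA) x = 4 * x none - 4 * x (pt 1) := by
  have h : ∀ p : GolayPt, ofL listA p =
      (if p = none then 4 else 0) + (if p = pt 1 then -4 else 0) := by decide +kernel
  simp [dotInt, h, add_mul, Finset.sum_add_distrib, ite_mul]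
  ring

theorem mem_pts0 {x : leechLattice} : x ∈ pts U5 W0 ↔ sqNorm (x : GolayPt → ℤ) = 32 ∧
    4 * x.1 none + ∑ p, x.1 p = 24 ∧ x.1 (pt 1) = x.1 none := by
  have h : dotInt W0.1 x.1 = dotInt (ofL listA) x.1 - dotInt vecU5 x.1 := by
    rw [W0_val]; simp [dotInt, sub_mul, Finset.sum_sub_distrib]
  simp only [pts, Set.mem_ofPred_eq, h, show (U5 : GolayPt → ℤ) = vecU5 from rfl, dotInt_vecU5,
    dotInt_listA]
  constructor <;> rintro ⟨h1, h2, h3⟩ <;> exact ⟨h1, h2, by omega⟩

theorem pair_mem : sqNorm (U5 : GolayPt → ℤ) = 48 ∧ sqNorm (W0 : GolayPt → ℤ) = 48 ∧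
    dotInt (U5 : GolayPt → ℤ) (W0 : GolayPt → ℤ) = -32 := by
  rw [W0_val, show (U5 : GolayPt → ℤ) = vecU5 from rfl]
  decide +kernel

/-- The coordinates of `(4, 4, 0²²)`. -/
def listX : List ℤ := 4 :: 4 :: List.replicate 22 0

theorem listX_mem : ofL listX ∈ leechLattice := by
  refine Cfsg.Agent.Leech.mem_of_inLeechB ?_
  decide +kernel

/-- The vector `(4, 4, 0²²)`. -/
def X0 : leechLattice := ⟨ofL listX, listX_mem⟩

theorem dotInt_X0 (x : GolayPt → ℤ) : dotInt (ofL listX) x = 4 * x none + 4 * x (pt 1) := by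
  have h : ∀ p : GolayPt, ofL listX p =
      (if p = none then 4 else 0) + (if p = pt 1 then 4 else 0) := by decide +kernel
  simp [dotInt, h, add_mul, Finset.sum_add_distrib, ite_mul]

/-- The shapes of the 100 vectors. -/
theorem pts0_cases {x : leechLattice} (hx : x ∈ pts U5 W0) :
    x = X0 ∨
    (∃ o ∈ octads, none ∈ o ∧ pt 1 ∈ o ∧ x.1 = evenForm o ∅) ∨
    ∃ j, j ≠ none ∧ j ≠ pt 1 ∧ x.1 = oddForm ∅ j := by
  classical
  obtain ⟨hN, hdot, heq⟩ := mem_pts0.mp hx
  have h01 : (none : GolayPt) ≠ pt 1 := by decide +kernel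
  rcases minimal_cases x.2 hN with
    ⟨p, q, hpq, hxp, hxq, hrest⟩ | ⟨o, ho, M, hM, he⟩ | ⟨T, hT, j, hTc, he⟩
  · left
    have hs : ∑ r, x.1 r = x.1 p + x.1 q := by
      rw [← Finset.sum_pair hpq]
      refine (Finset.sum_subset (Finset.subset_univ _) fun r _ hr => ?_).symm
      simp only [Finset.mem_insert, Finset.mem_singleton, not_or] at hr
      exact hrest r hr.1 hr.2
    rw [hs] at hdot
    have hn : x.1 none = 4 := by
      by_cases hp : p = none
      · subst hp; omega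
      by_cases hq : q = none
      · subst hq; omega
      have := hrest none (Ne.symm hp) (Ne.symm hq)
      omega
    rw [hn] at heq
    refine Subtype.ext (funext fun r => ?_)
    show x.1 r = ofL listX r
    have hmem : ∀ r, x.1 r ≠ 0 → r = p ∨ r = q := fun r hr => by
      by_contra h
      rw [not_or] at h
      exact hr (hrest r h.1 h.2)
    by_cases hr0 : r = none
    · subst hr0; rw [hn]; rfl
    by_cases hr1 : r = pt 1
    · subst hr1; rw [heq]; decide +kernel
    have e : ∀ r : GolayPt, r ≠ none → r ≠ pt 1 → ofL listX r = 0 := by decide +kernel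
    rw [e r hr0 hr1]
    by_contra hne
    rcases hmem r hne with rfl | rfl <;> rcases hmem none (by omega) with h | h <;>
      rcases hmem (pt 1) (by omega) with h' | h' <;> simp_all
  · right; left
    have hs := sum_evenForm hM
    rw [he, hs, ho.2] at hdot
    rw [he] at heq
    by_cases hnM : (none : GolayPt) ∈ M
    · simp only [evenForm, hnM, if_true] at hdot
      omega
    simp only [evenForm, hnM, if_false] at hdot heq
    by_cases hn : (none : GolayPt) ∈ o
    · simp only [hn, if_true] at hdot heq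
      obtain rfl : M = ∅ := Finset.card_eq_zero.mp (by omega)
      refine ⟨o, ho, hn, ?_, he⟩
      by_contra h1
      simp [h1] at heq
    · simp only [hn, if_false] at hdot
      omega
  · right; right
    rw [he, sum_oddForm] at hdot
    rw [he] at heq
    by_cases hn : (none : GolayPt) ∈ T <;> by_cases hj : j = none
    · subst hj
      simp only [oddForm, hn, if_true, Ne.symm h01, if_false] at heq
      split_ifs at heq <;> omega
    · simp only [oddForm, hn, if_true, Ne.symm hj, if_false] at hdot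
      have : T.card ≠ 0 := Finset.card_ne_zero.mpr ⟨none, hn⟩
      split_ifs at hdot <;> omega
    · subst hj
      simp only [oddForm, hn, if_false, if_true] at hdot
      omega
    · simp only [oddForm, hn, Ne.symm hj, if_false] at hdot
      by_cases hjT : j ∈ T
      · simp only [hjT, if_true] at hdot
        omega
      simp only [hjT, if_false] at hdot
      obtain rfl : T = ∅ := Finset.card_eq_zero.mp (by omega)
      refine ⟨j, hj, ?_, he⟩
      rintro rfl
      simp [oddForm, hj, h01] at heq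

theorem dot_X0_X0 : dotInt (X0 : GolayPt → ℤ) (X0 : GolayPt → ℤ) = 32 := by
  show dotInt (ofL listX) (ofL listX) = 32
  decide +kernel

theorem dot_X0_even {o : Finset GolayPt} (hn : none ∈ o) (h1 : pt 1 ∈ o) {x : leechLattice}
    (hx : x.1 = evenForm o ∅) : dotInt (X0 : GolayPt → ℤ) (x : GolayPt → ℤ) = 16 := by
  show dotInt (ofL listX) x.1 = 16
  simp [dotInt_X0, hx, evenForm, hn, h1]

theorem dot_X0_odd {j : GolayPt} (hn : j ≠ none) (h1 : j ≠ pt 1) {x : leechLattice}
    (hx : x.1 = oddForm ∅ j) : dotInt (X0 : GolayPt → ℤ) (x : GolayPt → ℤ) = 8 := by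
  show dotInt (ofL listX) x.1 = 8
  simp [dotInt_X0, hx, oddForm, Ne.symm hn, Ne.symm h1]

theorem X0_mem : X0 ∈ pts U5 W0 := by
  rw [mem_pts0]
  show sqNorm (ofL listX) = 32 ∧ 4 * ofL listX none + ∑ p, ofL listX p = 24 ∧
    ofL listX (pt 1) = ofL listX none
  decide +kernel

theorem words_ok : (wordH.all St.ok && wordN.all St.ok) = true ∧
    ([(listU, listU), (listA, listA),
      (listX, toL (evenForm (ofMask octH) ∅))].all fun e => actW wordH e.1 == e.2) = true ∧
    ([(listU, listU), (listA, listA),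
      (listX, toL (oddForm ∅ (pt posN)))].all fun e => actW wordN e.1 == e.2) = true ∧
    M24Geo.isWord 8 octH = true ∧ (none : GolayPt) ∈ ofMask octH ∧ pt 1 ∈ ofMask octH ∧
    pt posN ≠ none ∧ pt posN ≠ pt 1 := by
  decide +kernel

theorem word_el {W : List St} (hW : W.all St.ok = true) {l : List ℤ}
    (hl : ([(listU, listU), (listA, listA), (listX, l)].all fun e => actW W e.1 == e.2) = true) :
    ∃ g : Co0, g • U5 = U5 ∧ g • W0 = W0 ∧ (g • X0).1 = ofL l := by
  obtain ⟨g, hg⟩ := exists_of_certs hW hl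
  have hU : g • U5 = U5 := Subtype.ext (by
    rw [hg (listU, listU) (by simp) U5 listU_eq]; exact listU_eq.symm)
  have hA : g • A0 = A0 := Subtype.ext (hg (listA, listA) (by simp) A0 rfl)
  refine ⟨g, hU, ?_, hg (listX, l) (by simp) X0 rfl⟩
  rw [W0, co0_sub, hA, hU]

theorem perm_el {σ : Equiv.Perm GolayPt} (hσ : σ ∈ M24) (h0 : σ none = none)
    (h1 : σ (pt 1) = pt 1) :
    permEl hσ • U5 = U5 ∧ permEl hσ • W0 = W0 ∧ permEl hσ • X0 = X0 := by
  have hU : permEl hσ • U5 = U5 := Subtype.ext (vecU5_comp h0)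
  have hi : ∀ p, (σ p = none ↔ p = none) ∧ (σ p = pt 1 ↔ p = pt 1) := fun p =>
    ⟨⟨fun e => σ.injective (e.trans h0.symm), fun e => e ▸ h0⟩,
      ⟨fun e => σ.injective (e.trans h1.symm), fun e => e ▸ h1⟩⟩
  have hA : permEl hσ • A0 = A0 := by
    have h : ∀ p : GolayPt, ofL listA p =
        (if p = none then 4 else 0) + (if p = pt 1 then -4 else 0) := by decide +kernel
    refine Subtype.ext (funext fun p => ?_)
    show ofL listA (σ p) = ofL listA p
    simp only [h, (hi p).1, (hi p).2]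
  refine ⟨hU, by rw [W0, co0_sub, hA, hU], ?_⟩
  have h : ∀ p : GolayPt, ofL listX p =
      (if p = none then 4 else 0) + (if p = pt 1 then 4 else 0) := by decide +kernel
  refine Subtype.ext (funext fun p => ?_)
  show ofL listX (σ p) = ofL listX p
  simp only [h, (hi p).1, (hi p).2]

theorem even_move {o o' : Finset GolayPt} (ho : o ∈ octads) (hn : none ∈ o) (h1 : pt 1 ∈ o)
    (ho' : o' ∈ octads) (hn' : none ∈ o') (h1' : pt 1 ∈ o') {x x' : leechLattice}
    (hx : x.1 = evenForm o ∅) (hx' : x'.1 = evenForm o' ∅) :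
    ∃ g : Co0, g • U5 = U5 ∧ g • W0 = W0 ∧ g • X0 = X0 ∧ g • x = x' := by
  have h01 : (none : GolayPt) ≠ pt 1 := by decide +kernel
  obtain ⟨g, hg, hgo, hg0, hg1⟩ := OctadSub.exists_two_in ho hn h1 h01
  obtain ⟨g', hg', hgo', hg0', hg1'⟩ := OctadSub.exists_two_in ho' hn' h1' h01
  have hσ : g * g'⁻¹ ∈ M24 := mul_mem hg (inv_mem hg')
  obtain ⟨hU, hW, hX⟩ := perm_el hσ (map_pt hg0 hg0') (map_pt hg1 hg1')
  refine ⟨permEl hσ, hU, hW, hX, Subtype.ext ?_⟩
  rw [permEl_smul, hx, hx']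
  have e := evenForm_comp o' ∅ (g * g'⁻¹)
  rwa [map_set hgo hgo', Finset.smul_finset_empty] at e

theorem odd_move {j j' : GolayPt} (hn : j ≠ none) (h1 : j ≠ pt 1) (hn' : j' ≠ none)
    (h1' : j' ≠ pt 1) {x x' : leechLattice} (hx : x.1 = oddForm ∅ j) (hx' : x'.1 = oddForm ∅ j') :
    ∃ g : Co0, g • U5 = U5 ∧ g • W0 = W0 ∧ g • X0 = X0 ∧ g • x = x' := by
  have key : ∀ k, k ≠ none → k ≠ pt 1 → ∃ g ∈ M24, g none = none ∧ g (pt 1) = pt 1 ∧ g (pt 2) = k := by
    intro k hk hk1
    have h01 : (none : GolayPt) ≠ pt 1 := by decide +kernel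
    obtain ⟨σ, hσ, hσf⟩ := trans_tuple 3 (by norm_num) (fun i => [none, pt 1, k].getD i none) (by
      intro a ha b hb hab
      have hnd : [none, pt 1, k].Nodup := by simp [h01, Ne.symm hk, Ne.symm hk1]
      rw [List.getD_eq_getElem _ _ (by simpa using ha),
        List.getD_eq_getElem _ _ (by simpa using hb)] at hab
      exact (List.Nodup.getElem_inj_iff hnd).mp hab)
    exact ⟨σ, hσ, hσf 0 (by norm_num), hσf 1 (by norm_num), hσf 2 (by norm_num)⟩
  obtain ⟨g, hg, hg0, hg1, hgj⟩ := key j hn h1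
  obtain ⟨g', hg', hg0', hg1', hgj'⟩ := key j' hn' h1'
  have hσ : g * g'⁻¹ ∈ M24 := mul_mem hg (inv_mem hg')
  obtain ⟨hU, hW, hX⟩ := perm_el hσ (fix_none hg0 hg0') (map_pt hg1 hg1')
  refine ⟨permEl hσ, hU, hW, hX, Subtype.ext ?_⟩
  rw [permEl_smul, hx, hx']
  have e := oddForm_comp ∅ j' (g * g'⁻¹)
  rwa [Finset.smul_finset_empty, map_pt hgj hgj'] at e

theorem reach0 {x : leechLattice} (hx : x ∈ pts U5 W0) :
    ∃ g : Co0, g • U5 = U5 ∧ g • W0 = W0 ∧ g • X0 = x := by
  obtain ⟨hw, lH, lN, cH, cHn, cH1, cNn, cN1⟩ := words_ok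
  rw [Bool.and_eq_true] at hw
  rcases pts0_cases hx with rfl | ⟨o, ho, hn, h1, he⟩ | ⟨j, hn, h1, he⟩
  · exact ⟨1, one_smul _ _, one_smul _ _, one_smul _ _⟩
  · obtain ⟨g, gU, gW, gX⟩ := word_el hw.1 lH
    rw [ofL_toL] at gX
    obtain ⟨k, kU, kW, -, kx⟩ := even_move (mem_octads_of cH) cHn cH1 ho hn h1 gX he
    exact ⟨k * g, by rw [mul_smul, gU, kU], by rw [mul_smul, gW, kW], by rw [mul_smul, kx]⟩
  · obtain ⟨g, gU, gW, gX⟩ := word_el hw.2 lN
    rw [ofL_toL] at gX
    obtain ⟨k, kU, kW, -, kx⟩ := odd_move cNn cN1 hn h1 gX he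
    exact ⟨k * g, by rw [mul_smul, gU, kU], by rw [mul_smul, gW, kW], by rw [mul_smul, kx]⟩

theorem count0 :
    {y : leechLattice | y ∈ pts U5 W0 ∧
      dotInt (X0 : GolayPt → ℤ) (y : GolayPt → ℤ) = 8}.ncard = 22 ∧
    {y : leechLattice | y ∈ pts U5 W0 ∧ y ≠ X0 ∧
      dotInt (X0 : GolayPt → ℤ) (y : GolayPt → ℤ) ≠ 8}.ncard = 77 := by
  classical
  have h01 : (none : GolayPt) ≠ pt 1 := by decide +kernel
  constructor
  · have himg : (fun y : leechLattice => y.1) '' {y : leechLattice | y ∈ pts U5 W0 ∧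
        dotInt (X0 : GolayPt → ℤ) (y : GolayPt → ℤ) = 8} =
        (fun j => oddForm ∅ j) '' {j | j ≠ none ∧ j ≠ pt 1} := by
      ext f
      simp only [Set.mem_image, Set.mem_ofPred_eq]
      constructor
      · rintro ⟨y, ⟨hy, hd⟩, rfl⟩
        rcases pts0_cases hy with rfl | ⟨o, ho, hn, h1, he⟩ | ⟨j, hn, h1, he⟩
        · rw [dot_X0_X0] at hd; omega
        · rw [dot_X0_even hn h1 he] at hd; omega
        · exact ⟨j, ⟨hn, h1⟩, he.symm⟩
      · rintro ⟨j, ⟨hn, h1⟩, rfl⟩
        obtain ⟨hw, -, lN, -, -, -, cNn, cN1⟩ := words_ok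
        rw [Bool.and_eq_true] at hw
        obtain ⟨g, -, -, gX⟩ := word_el hw.2 lN
        rw [ofL_toL] at gX
        have hmem : oddForm ∅ j ∈ leechLattice := by
          obtain ⟨σ, hσ, hσf⟩ := trans_tuple 1 (by norm_num) (fun _ => j) (by
            intro a ha b hb _; omega)
          obtain ⟨τ, hτ, hτf⟩ := trans_tuple 1 (by norm_num) (fun _ => pt posN) (by
            intro a ha b hb _; omega)
          have e := oddForm_comp ∅ j (τ * σ⁻¹)⁻¹
          have hj : (τ * σ⁻¹)⁻¹ (pt posN) = j := by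
            rw [mul_inv_rev, inv_inv, Equiv.Perm.mul_apply,
              show τ⁻¹ (pt posN) = pt 0 from by
                rw [← hτf 0 (by norm_num), Equiv.Perm.coe_inv, Equiv.symm_apply_apply]]
            exact hσf 0 (by norm_num)
          have e' := oddForm_comp ∅ (pt posN) (τ * σ⁻¹)
          have hj' : (τ * σ⁻¹) j = pt posN := by
            rw [← hj, Equiv.Perm.coe_inv, Equiv.apply_symm_apply]
          rw [Finset.smul_finset_empty] at e'
          have hm : oddForm ∅ (pt posN) ∈ leechLattice := gX ▸ (g • X0).2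
          have h2 := M24_comp_mem_leechLattice (mul_mem hτ (inv_mem hσ)) hm
          have h3 := oddForm_comp ∅ j (τ * σ⁻¹)
          rw [Finset.smul_finset_empty, hj'] at h3
          rwa [h3] at h2
        have hp : (⟨_, hmem⟩ : leechLattice) ∈ pts U5 W0 := by
          rw [mem_pts0]
          refine ⟨?_, ?_, ?_⟩
          · show sqNorm (oddForm ∅ j) = 32
            exact (show ∀ i : GolayPt, sqNorm (oddForm ∅ i) = 32 by decide +kernel) j
          · show 4 * oddForm ∅ j none + ∑ p, oddForm ∅ j p = 24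
            rw [sum_oddForm]; simp [oddForm, Ne.symm hn]
          · show oddForm ∅ j (pt 1) = oddForm ∅ j none
            simp [oddForm, Ne.symm hn, Ne.symm h1]
        exact ⟨⟨_, hmem⟩, ⟨hp, dot_X0_odd hn h1 rfl⟩, rfl⟩
    rw [← Set.ncard_image_of_injective _ Subtype.val_injective, himg,
      Set.ncard_image_of_injective _ (fun j j' e => by
        have := congrFun e j
        simp only [oddForm, Finset.notMem_empty, if_false, if_true] at this
        by_contra hne
        simp [hne] at this),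
      show {j : GolayPt | j ≠ none ∧ j ≠ pt 1} =
        ((Finset.univ.filter fun j : GolayPt => j ≠ none ∧ j ≠ pt 1 : Finset GolayPt) : Set GolayPt)
        from by ext; simp, Set.ncard_coe_finset]
    decide +kernel
  · have himg : (fun y : leechLattice => y.1) '' {y : leechLattice | y ∈ pts U5 W0 ∧ y ≠ X0 ∧
        dotInt (X0 : GolayPt → ℤ) (y : GolayPt → ℤ) ≠ 8} =
        (fun o => evenForm o ∅) '' {o : Finset GolayPt | o ∈ octads ∧ none ∈ o ∧ pt 1 ∈ o} := by
      ext f
      simp only [Set.mem_image, Set.mem_ofPred_eq]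
      constructor
      · rintro ⟨y, ⟨hy, hne, hd⟩, rfl⟩
        rcases pts0_cases hy with rfl | ⟨o, ho, hn, h1, he⟩ | ⟨j, hn, h1, he⟩
        · exact absurd rfl hne
        · exact ⟨o, ⟨ho, hn, h1⟩, he.symm⟩
        · exact absurd (dot_X0_odd hn h1 he) hd
      · rintro ⟨o, ⟨ho, hn, h1⟩, rfl⟩
        obtain ⟨hw, lH, -, cH, cHn, cH1, -, -⟩ := words_ok
        rw [Bool.and_eq_true] at hw
        obtain ⟨g, -, -, gX⟩ := word_el hw.1 lH
        rw [ofL_toL] at gX
        have hmem : evenForm o ∅ ∈ leechLattice := by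
          obtain ⟨σ, hσ, hgo, hg0, hg1⟩ := OctadSub.exists_two_in ho hn h1 h01
          obtain ⟨τ, hτ, hgo', hg0', hg1'⟩ := OctadSub.exists_two_in (mem_octads_of cH) cHn cH1 h01
          have h2 := M24_comp_mem_leechLattice (mul_mem hτ (inv_mem hσ))
            (gX ▸ (g • X0).2 : evenForm (ofMask octH) ∅ ∈ leechLattice)
          have e := evenForm_comp o ∅ (τ * σ⁻¹)
          rw [map_set hgo' hgo, Finset.smul_finset_empty] at e
          rwa [e] at h2
        have hp : (⟨_, hmem⟩ : leechLattice) ∈ pts U5 W0 := by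
          rw [mem_pts0]
          refine ⟨?_, ?_, ?_⟩
          · show sqNorm (evenForm o ∅) = 32
            have e : ∀ p, evenForm o ∅ p ^ 2 = if p ∈ o then 4 else 0 := fun p => by
              by_cases hp : p ∈ o <;> simp [evenForm, hp]
            simp [sqNorm, e, Finset.sum_ite_mem, ho.2]
          · show 4 * evenForm o ∅ none + ∑ p, evenForm o ∅ p = 24
            rw [sum_evenForm (Finset.empty_subset _), ho.2]; simp [evenForm, hn]
          · show evenForm o ∅ (pt 1) = evenForm o ∅ none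
            simp [evenForm, hn, h1]
        refine ⟨⟨_, hmem⟩, ⟨hp, fun e => ?_, by rw [dot_X0_even hn h1 rfl]; norm_num⟩, rfl⟩
        have := congrArg (fun y : leechLattice => dotInt (X0 : GolayPt → ℤ) (y : GolayPt → ℤ)) e
        simp only [dot_X0_X0] at this
        rw [dot_X0_even hn h1 (x := ⟨_, hmem⟩) rfl] at this
        omega
    rw [← Set.ncard_image_of_injective _ Subtype.val_injective, himg,
      Set.ncard_image_of_injective _ (fun o o' e => by
        ext p
        have := congrFun e p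
        by_cases hp : p ∈ o <;> by_cases hp' : p ∈ o' <;> simp_all [evenForm])]
    have h := OctadSub.cert_twoIn.count_all (by simp) (one_mem M24)
    rw [show OctadSub.twoInTree.keys.length = 77 by decide +kernel] at h
    rw [← h]
    congr 1
    ext o
    simp [OctadSub.Meets, none_eq]

theorem dot_smul (g : Co0) (a b : leechLattice) :
    dotInt ((g • a : leechLattice) : GolayPt → ℤ) ((g • b : leechLattice) : GolayPt → ℤ) =
      dotInt (a : GolayPt → ℤ) (b : GolayPt → ℤ) :=
  co0_dotInt g a b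

theorem mem_pts_smul (g : Co0) {v w x : leechLattice} :
    g • x ∈ pts (g • v) (g • w) ↔ x ∈ pts v w := by
  simp only [pts, Set.mem_ofPred_eq, dot_smul,
    show sqNorm ((g • x : leechLattice) : GolayPt → ℤ) = sqNorm (x : GolayPt → ℤ) from g.2.2 x]

/-- Moving a point of a pair to the standard one. -/
theorem exists_to_X0 {v w x : leechLattice} (hv : sqNorm (v : GolayPt → ℤ) = 48)
    (hw : sqNorm (w : GolayPt → ℤ) = 48)
    (hvw : dotInt (v : GolayPt → ℤ) (w : GolayPt → ℤ) = -32) (hx : x ∈ pts v w) :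
    ∃ g : Co0, g • v = U5 ∧ g • w = W0 ∧ g • x = X0 := by
  obtain ⟨g, hg1, hg2⟩ := exists_pair_move v w U5 W0 hv hw hvw pair_mem.1 pair_mem.2.1 pair_mem.2.2
  obtain ⟨k, k1, k2, k3⟩ := reach0 (x := g • x) (by rw [← hg1, ← hg2, mem_pts_smul]; exact hx)
  exact ⟨k⁻¹ * g, by rw [mul_smul, hg1, inv_smul_eq_iff, k1],
    by rw [mul_smul, hg2, inv_smul_eq_iff, k2], by rw [mul_smul, inv_smul_eq_iff, k3]⟩

theorem transfer (g : Co0) {S T : Set leechLattice} (h : ∀ y, g • y ∈ T ↔ y ∈ S) :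
    S.ncard = T.ncard := by
  rw [← Set.ncard_image_of_injective S (MulAction.injective g)]
  congr 1
  ext z
  constructor
  · rintro ⟨y, hy, rfl⟩; exact (h y).mpr hy
  · intro hz
    exact ⟨g⁻¹ • z, (h _).mp (by rwa [smul_inv_smul]), smul_inv_smul _ _⟩

/-- The suborbits of a point. -/
theorem suborbits {v w x : leechLattice} (hv : sqNorm (v : GolayPt → ℤ) = 48)
    (hw : sqNorm (w : GolayPt → ℤ) = 48)
    (hvw : dotInt (v : GolayPt → ℤ) (w : GolayPt → ℤ) = -32) (hx : x ∈ pts v w) :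
    {y : leechLattice | y ∈ pts v w ∧
      dotInt (x : GolayPt → ℤ) (y : GolayPt → ℤ) = 8}.ncard = 22 ∧
    {y : leechLattice | y ∈ pts v w ∧ y ≠ x ∧
      dotInt (x : GolayPt → ℤ) (y : GolayPt → ℤ) ≠ 8}.ncard = 77 := by
  obtain ⟨g, g1, g2, g3⟩ := exists_to_X0 hv hw hvw hx
  refine ⟨(transfer g fun y => ?_).trans count0.1, (transfer g fun y => ?_).trans count0.2⟩
  · show g • y ∈ pts U5 W0 ∧ _ ↔ y ∈ pts v w ∧ _
    rw [← g1, ← g2, ← g3, mem_pts_smul, dot_smul]
  · show g • y ∈ pts U5 W0 ∧ _ ↔ y ∈ pts v w ∧ _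
    rw [← g1, ← g2, ← g3, mem_pts_smul, dot_smul, (MulAction.injective g).ne_iff]

theorem suborbit_trans {v w x : leechLattice} (hv : sqNorm (v : GolayPt → ℤ) = 48)
    (hw : sqNorm (w : GolayPt → ℤ) = 48)
    (hvw : dotInt (v : GolayPt → ℤ) (w : GolayPt → ℤ) = -32) (hx : x ∈ pts v w)
    {y y' : leechLattice} (hy : y ∈ pts v w) (hy' : y' ∈ pts v w) (hne : y ≠ x) (hne' : y' ≠ x)
    (h : dotInt (x : GolayPt → ℤ) (y : GolayPt → ℤ) = 8 ↔
      dotInt (x : GolayPt → ℤ) (y' : GolayPt → ℤ) = 8) :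
    ∃ g : Co0, g • v = v ∧ g • w = w ∧ g • x = x ∧ g • y = y' := by
  obtain ⟨g, g1, g2, g3⟩ := exists_to_X0 hv hw hvw hx
  have hyy : ∀ z, z ∈ pts v w → z ≠ x → (g • z ∈ pts U5 W0 ∧ g • z ≠ X0 ∧
      dotInt (X0 : GolayPt → ℤ) ((g • z : leechLattice) : GolayPt → ℤ) =
        dotInt (x : GolayPt → ℤ) (z : GolayPt → ℤ)) := fun z hz hzx =>
    ⟨by rw [← g1, ← g2, mem_pts_smul]; exact hz,
      by rw [← g3]; exact fun e => hzx ((MulAction.injective g) e), by rw [← g3, dot_smul]⟩
  obtain ⟨a1, a2, a3⟩ := hyy y hy hne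
  obtain ⟨b1, b2, b3⟩ := hyy y' hy' hne'
  rw [← a3, ← b3] at h
  obtain ⟨k, k1, k2, k3, k4⟩ : ∃ k : Co0, k • U5 = U5 ∧ k • W0 = W0 ∧ k • X0 = X0 ∧
      k • g • y = g • y' := by
    rcases pts0_cases a1 with e | ⟨o, ho, hn, h1, he⟩ | ⟨j, hn, h1, he⟩
    · exact absurd e a2
    · rcases pts0_cases b1 with e | ⟨o', ho', hn', h1', he'⟩ | ⟨j', hn', h1', he'⟩
      · exact absurd e b2
      · exact even_move ho hn h1 ho' hn' h1' he he'
      · have := h.mpr (dot_X0_odd hn' h1' he')
        rw [dot_X0_even hn h1 he] at this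
        omega
    · rcases pts0_cases b1 with e | ⟨o', ho', hn', h1', he'⟩ | ⟨j', hn', h1', he'⟩
      · exact absurd e b2
      · have := h.mp (dot_X0_odd hn h1 he)
        rw [dot_X0_even hn' h1' he'] at this
        omega
      · exact odd_move hn h1 hn' h1' he he'
  exact ⟨g⁻¹ * k * g, by rw [mul_smul, mul_smul, g1, k1, ← g1, inv_smul_smul],
    by rw [mul_smul, mul_smul, g2, k2, ← g2, inv_smul_smul],
    by rw [mul_smul, mul_smul, g3, k3, ← g3, inv_smul_smul],
    by rw [mul_smul, mul_smul, k4, inv_smul_smul]⟩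

theorem configuration {v w : leechLattice} (hv : sqNorm (v : GolayPt → ℤ) = 48)
    (hw : sqNorm (w : GolayPt → ℤ) = 48)
    (hvw : dotInt (v : GolayPt → ℤ) (w : GolayPt → ℤ) = -32) :
    (pts v w).ncard = 100 ∧
      ∀ x ∈ pts v w, ∀ x' ∈ pts v w, ∃ g : Co0, g • v = v ∧ g • w = w ∧ g • x = x' := by
  obtain ⟨g, g1, g2⟩ := exists_pair_move v w U5 W0 hv hw hvw pair_mem.1 pair_mem.2.1 pair_mem.2.2
  refine ⟨?_, fun x hx x' hx' => ?_⟩
  · rw [transfer g (T := pts U5 W0) fun y => by rw [← g1, ← g2, mem_pts_smul]]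
    have hsplit : pts U5 W0 = insert X0
        ({y : leechLattice | y ∈ pts U5 W0 ∧
          dotInt (X0 : GolayPt → ℤ) (y : GolayPt → ℤ) = 8} ∪
        {y : leechLattice | y ∈ pts U5 W0 ∧ y ≠ X0 ∧
          dotInt (X0 : GolayPt → ℤ) (y : GolayPt → ℤ) ≠ 8}) := by
      ext y
      simp only [Set.mem_insert_iff, Set.mem_union, Set.mem_ofPred_eq]
      constructor
      · intro hy; tauto
      · rintro (rfl | h | h)
        · exact X0_mem
        · exact h.1
        · exact h.1
    obtain ⟨c1, c2⟩ := count0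
    have f1 := Set.finite_of_ncard_ne_zero (c1.trans_ne (by norm_num))
    have f2 := Set.finite_of_ncard_ne_zero (c2.trans_ne (by norm_num))
    rw [hsplit, Set.ncard_insert_of_notMem ?_ (f1.union f2), Set.ncard_union_eq ?_ f1 f2, c1, c2]
    · rw [Set.disjoint_left]
      exact fun y h h' => h'.2.2 h.2
    · rintro (⟨-, h⟩ | ⟨-, h, -⟩)
      · rw [dot_X0_X0] at h; omega
      · exact h rfl
  · obtain ⟨a, a1, a2, a3⟩ := exists_to_X0 hv hw hvw hx
    obtain ⟨b, b1, b2, b3⟩ := exists_to_X0 hv hw hvw hx'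
    exact ⟨b⁻¹ * a, by rw [mul_smul, a1, ← b1, inv_smul_smul],
      by rw [mul_smul, a2, ← b2, inv_smul_smul], by rw [mul_smul, a3, ← b3, inv_smul_smul]⟩

end Cfsg.Agent.LeechHS
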