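import Cfsg.Agent.Sporadic.HSRankThree
import Cfsg.Agent.Sporadic.LeechHS
import Cfsg.Agent.Leech.OutHS

/-!
The Higman-Sims group on its 100 lattice vectors as an instance of the rank three action.
-/

set_option autoImplicit false

namespace Cfsg.Agent.HSRank

open Cfsg Cfsg.Agent.Leech MulAction

set_option synthInstance.maxHeartbeats 400000
set_option maxHeartbeats 1000000

attribute [local irreducible] set100

/-- The 100 vectors, as a set with an action. -/
noncomputable def pts100 : SubMulAction hs leechLattice where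
  carrier := set100
  smul_mem' g _ hx := set100_inv g.2 hx

theorem mem_pts100 {x : leechLattice} : x ∈ pts100 ↔ x ∈ set100 := Iff.rfl

/-- The base point. -/
noncomputable def base : pts100 := ⟨pU, pU_mem100⟩

theorem card_pts100 : Nat.card pts100 = 100 := by
  show Nat.card (set100 : Set leechLattice) = 100
  rw [Nat.card_coe_set_eq, count100]

theorem mem_hs_of_fix {g : Co0} (h1 : g • pV = pV) (h2 : g • pY = pY) : g ∈ hs := by
  refine mem_hs.mpr ⟨h1, ?_⟩
  have e : pX = -pV - pY := by rw [pY_eq]; abel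
  rw [e, co0_sub, co0_neg, h1, h2]

theorem exists_act :
    ∃ b c : pts100, Act hs pts100 base b c := by
  have hv : sqNorm pV.1 = 48 := sqNorm_configs.2.1
  have hw : sqNorm pY.1 = 48 := sqNorm_configs.2.2.2.2.1
  have hvw : dotInt pV.1 pY.1 = -32 := by
    show dotInt (tv 5 1 1) (tv (-1) (-5) (-1)) = -32
    decide +kernel
  have hx : pU ∈ {x : leechLattice | sqNorm x.1 = 32 ∧ dotInt pV.1 x.1 = 24 ∧
      dotInt pY.1 x.1 = -24} := mem_set100.mp pU_mem100
  obtain ⟨h22, h77⟩ := LeechHS.suborbits hv hw hvw hx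
  obtain ⟨y, hy, hyd⟩ := Set.nonempty_of_ncard_ne_zero (by rw [h22]; norm_num :
    _ ≠ 0)
  obtain ⟨z, hz, hzne, hzd⟩ := Set.nonempty_of_ncard_ne_zero (by rw [h77]; norm_num :
    _ ≠ 0)
  have hself : dotInt pU.1 pU.1 = 32 := by
    show dotInt (tv 4 4 0) (tv 4 4 0) = 32
    decide +kernel
  have hyne : y ≠ pU := by
    rintro rfl
    rw [hself] at hyd
    norm_num at hyd
  let b : pts100 := ⟨y, mem_set100.mpr hy⟩
  let c : pts100 := ⟨z, mem_set100.mpr hz⟩
  have horb : ∀ u : pts100, u.1 ≠ pU → Subtype.val '' orbit (stabilizer hs base) u =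
      {x | (sqNorm x.1 = 32 ∧ dotInt pV.1 x.1 = 24 ∧ dotInt pY.1 x.1 = -24) ∧ x ≠ pU ∧
        (dotInt pU.1 x.1 = 8 ↔ dotInt pU.1 u.1.1 = 8)} := by
    intro u hu
    ext x
    constructor
    · rintro ⟨v, ⟨g, rfl⟩, rfl⟩
      have hgU : (g.1.1 : Co0) • pU = pU := congrArg Subtype.val g.2
      refine ⟨mem_set100.mp (g • u).2, ?_, ?_⟩
      · intro h
        exact hu (MulAction.injective g.1.1 (h.trans hgU.symm))
      · have h := co0_dotInt g.1.1 pU u.1
        rw [hgU] at h
        show dotInt pU.1 ((g.1.1 : Co0) • u.1).1 = 8 ↔ _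
        rw [h]
    · rintro ⟨hx1, hx2, hx3⟩
      obtain ⟨g, g1, g2, g3, g4⟩ := LeechHS.suborbit_trans hv hw hvw hx (mem_set100.mp u.2) hx1
        hu hx2 hx3.symm
      exact ⟨_, ⟨⟨⟨g, mem_hs_of_fix g1 g2⟩, Subtype.ext g3⟩, rfl⟩, g4⟩
  refine ⟨b, c, card_pts100, fun x => ?_, ?_, ?_⟩
  · obtain ⟨g, hg, e⟩ := transitive100 x.2
    exact ⟨⟨g, hg⟩, Subtype.ext e⟩
  · rw [← Set.ncard_image_of_injective _ Subtype.val_injective, horb b hyne]
    refine Eq.trans (congrArg Set.ncard ?_) h22
    ext x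
    simp only [Set.mem_setOf_eq]
    constructor
    · exact fun h => ⟨h.1, h.2.2.mpr hyd⟩
    · refine fun h => ⟨h.1, ?_, iff_of_true h.2 hyd⟩
      rintro rfl
      rw [hself] at h
      norm_num at h
  · rw [← Set.ncard_image_of_injective _ Subtype.val_injective, horb c hzne]
    refine Eq.trans (congrArg Set.ncard ?_) h77
    ext x
    simp only [Set.mem_setOf_eq]
    exact ⟨fun h => ⟨h.1, h.2.1, fun e => hzd (h.2.2.mp e)⟩,
      fun h => ⟨h.1, h.2.1, iff_of_false h.2.2 hzd⟩⟩

theorem card_stab : Nat.card (stabilizer hs base) = 443520 := by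
  have e : stabilizer hs base = stabilizer hs pU := by
    ext g
    exact ⟨fun h => congrArg Subtype.val h, fun h => Subtype.ext h⟩
  rw [e, ← range_mh, ← Nat.card_congr (MonoidHom.ofInjective mh_injective).toEquiv,
    Golay.card_M22]

theorem faithful : FaithfulSMul hs pts100 := by
  haveI := isSimpleGroup_hs
  rcases (IsSimpleGroup.eq_bot_or_eq_top_of_normal (MulAction.toPermHom hs pts100).ker
    inferInstance) with h | h
  · exact ⟨fun {g g'} e => (MonoidHom.ker_eq_bot_iff _).mp h (Equiv.ext e)⟩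
  · exfalso
    obtain ⟨b, c, A⟩ := exists_act
    have hb : ∀ g : hs, g • b = b := fun g =>
      Equiv.Perm.ext_iff.mp (show MulAction.toPermHom hs pts100 g = 1 from
        MonoidHom.mem_ker.mp (h ▸ Subgroup.mem_top g)) b
    have h22 := A.cardB
    rw [show orbit (stabilizer hs base) b = {b} from
      Set.eq_singleton_iff_unique_mem.mpr ⟨mem_orbit_self b,
        fun x ⟨g, hg⟩ => hg ▸ hb g.1⟩, Set.ncard_singleton] at h22
    omega

/-- A rank three group of degree 100 with stabiliser of order 443520 is the Higman-Sims group. -/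
theorem isoHS {H V : Type*} [Group H] [MulAction H V] [FaithfulSMul H V] [Fintype V]
    [DecidableEq V] {a b c : V} (A : Act H V a b c)
    (hst : Nat.card (stabilizer H a) = 443520) : Spor.IsoHS H := by
  classical
  haveI := isSimpleGroup_hs
  haveI := faithful
  haveI : Finite pts100 := Nat.finite_of_card_ne_zero (by rw [card_pts100]; norm_num)
  haveI : Fintype pts100 := Fintype.ofFinite _
  obtain ⟨b', c', A'⟩ := exists_act
  obtain ⟨e⟩ := nonempty_mulEquiv A A' hst card_stab
  exact ⟨e.trans Leech.sporEquiv⟩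

end Cfsg.Agent.HSRank
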