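import Cfsg.Agent.Graphs.HS
import Mathlib.GroupTheory.Perm.Cycle.Type
import Mathlib.GroupTheory.GroupAction.SubMulAction

/-!
A rank three group of degree 100 with subdegrees 1, 22, 77 acts on a strongly regular graph with
parameters (100, 22, 0, 6); two such groups with point stabilisers of order 443520, one of them
simple, are isomorphic.
-/

set_option autoImplicit false

namespace Cfsg.Agent.HSRank

open MulAction

variable {H V : Type*} [Group H] [MulAction H V]

/-- The data of a rank three action of degree 100. -/
structure Act (H V : Type*) [Group H] [MulAction H V] (a b c : V) : Prop where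
  card : Nat.card V = 100
  trans : ∀ x : V, ∃ g : H, g • a = x
  cardB : (orbit (stabilizer H a) b).ncard = 22
  cardC : (orbit (stabilizer H a) c).ncard = 77

/-- The orbital of a pair. -/
def Rel (H : Type*) [Group H] [MulAction H V] (a b x y : V) : Prop :=
  ∃ g : H, g • a = x ∧ g • b = y

theorem rel_smul {a b x y : V} (g : H) : Rel H a b (g • x) (g • y) ↔ Rel H a b x y := by
  constructor
  · rintro ⟨h, h1, h2⟩
    exact ⟨g⁻¹ * h, by rw [mul_smul, h1, inv_smul_smul], by rw [mul_smul, h2, inv_smul_smul]⟩
  · rintro ⟨h, h1, h2⟩
    exact ⟨g * h, by rw [mul_smul, h1], by rw [mul_smul, h2]⟩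

theorem rel_base_iff {a b y : V} : Rel H a b a y ↔ y ∈ orbit (stabilizer H a) b := by
  constructor
  · rintro ⟨g, h1, h2⟩
    exact ⟨⟨g, h1⟩, h2⟩
  · rintro ⟨g, rfl⟩
    exact ⟨g.1, g.2, rfl⟩

variable [Fintype V] [DecidableEq V] {a b c : V}

theorem orbit_self (a : V) : (orbit (stabilizer H a) a).ncard = 1 := by
  rw [show orbit (stabilizer H a) a = {a} from
    Set.eq_singleton_iff_unique_mem.mpr ⟨mem_orbit_self a, fun x ⟨g, hg⟩ => hg ▸ g.2⟩,
    Set.ncard_singleton]

theorem Act.disjoint (A : Act H V a b c) :
    a ∉ orbit (stabilizer H a) b ∧ a ∉ orbit (stabilizer H a) c ∧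
      Disjoint (orbit (stabilizer H a) b) (orbit (stabilizer H a) c) := by
  have key : ∀ u w : V, (orbit (stabilizer H a) u).ncard ≠ (orbit (stabilizer H a) w).ncard →
      Disjoint (orbit (stabilizer H a) u) (orbit (stabilizer H a) w) := by
    intro u w h
    rw [Set.disjoint_left]
    intro x hx hx'
    exact h (by rw [← orbit_eq_iff.mpr hx, orbit_eq_iff.mpr hx'])
  refine ⟨fun h => ?_, fun h => ?_, key b c (by rw [A.cardB, A.cardC]; omega)⟩
  · exact Set.disjoint_left.mp (key a b (by rw [orbit_self, A.cardB]; omega)) (mem_orbit_self a) h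
  · exact Set.disjoint_left.mp (key a c (by rw [orbit_self, A.cardC]; omega)) (mem_orbit_self a) h

theorem Act.cases (A : Act H V a b c) (x : V) :
    x = a ∨ x ∈ orbit (stabilizer H a) b ∨ x ∈ orbit (stabilizer H a) c := by
  obtain ⟨h1, h2, h3⟩ := A.disjoint
  by_contra h
  simp only [not_or] at h
  have hsub : insert x (insert a (orbit (stabilizer H a) b ∪ orbit (stabilizer H a) c)) ⊆
      (Set.univ : Set V) := Set.subset_univ _
  have hle := Set.ncard_le_ncard hsub
  rw [Set.ncard_univ, A.card, Set.ncard_insert_of_notMem (by simp [h.1, h.2.1, h.2.2]),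
    Set.ncard_insert_of_notMem (by simp [h1, h2]),
    Set.ncard_union_eq h3, A.cardB, A.cardC] at hle
  omega

/-- The common value of a statistic on the translates of a set. -/
theorem ncard_smul_set {p q : V → Prop} (g : H) (h : ∀ y, q (g • y) ↔ p y) :
    {y | q y}.ncard = {y | p y}.ncard := by
  rw [← Set.ncard_image_of_injective {y | p y} (MulAction.injective g)]
  congr 1
  ext y
  simp only [Set.mem_image, Set.mem_setOf_eq]
  constructor
  · intro hy
    exact ⟨g⁻¹ • y, (h _).mp (by rwa [smul_inv_smul]), smul_inv_smul g y⟩
  · rintro ⟨z, hz, rfl⟩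
    exact (h z).mpr hz

theorem Act.out_card (A : Act H V a b c) (x : V) : {y | Rel H a b x y}.ncard = 22 := by
  obtain ⟨g, rfl⟩ := A.trans x
  rw [ncard_smul_set (p := fun y => Rel H a b a y) g (fun y => rel_smul g), ← A.cardB]
  congr 1
  ext y
  exact rel_base_iff

theorem Act.in_card (A : Act H V a b c) (x : V) : {y | Rel H a b y x}.ncard = 22 := by
  classical
  have hconst : ∀ x, {y | Rel H a b y x}.ncard = {y | Rel H a b y a}.ncard := by
    intro x
    obtain ⟨g, rfl⟩ := A.trans x
    exact ncard_smul_set (p := fun y => Rel H a b y a) g (fun y => rel_smul g)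
  have h := Finset.sum_card_bipartiteAbove_eq_sum_card_bipartiteBelow
    (s := (Finset.univ : Finset V)) (t := (Finset.univ : Finset V)) (r := Rel H a b)
  have e1 : ∀ x, ((Finset.univ : Finset V).bipartiteAbove (Rel H a b) x).card = 22 := by
    intro x
    rw [← A.out_card x, Set.ncard_eq_toFinset_card']
    congr 1
    ext y
    simp [Finset.bipartiteAbove]
  have e2 : ∀ x, ((Finset.univ : Finset V).bipartiteBelow (Rel H a b) x).card =
      {y | Rel H a b y a}.ncard := by
    intro x
    rw [← hconst x, Set.ncard_eq_toFinset_card']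
    congr 1
    ext y
    simp [Finset.bipartiteBelow]
  simp only [e1, e2, Finset.sum_const, Finset.card_univ, ← Nat.card_eq_fintype_card, A.card,
    smul_eq_mul] at h
  rw [hconst]; omega

theorem Act.rel_symm (A : Act H V a b c) {x y : V} (h : Rel H a b x y) : Rel H a b y x := by
  obtain ⟨g, rfl⟩ := A.trans y
  obtain ⟨z, rfl⟩ : ∃ z, g • z = x := ⟨g⁻¹ • x, smul_inv_smul g x⟩
  rw [rel_smul] at h ⊢
  obtain ⟨h1, -, h3⟩ := A.disjoint
  -- the set of predecessors of `a` is a union of orbits of size at most 22
  have hinv : ∀ s ∈ stabilizer H a, Rel H a b (s • z) a := fun s hs => by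
    have := (rel_smul s).mpr h
    rwa [mem_stabilizer_iff.mp hs] at this
  have hz : orbit (stabilizer H a) z ⊆ {y | Rel H a b y a} := by
    rintro _ ⟨s, rfl⟩
    exact hinv s.1 s.2
  rw [rel_base_iff]
  rcases A.cases z with rfl | hzb | hzc
  · exact absurd (rel_base_iff.mp h) h1
  · exact hzb
  · exfalso
    have hle := Set.ncard_le_ncard hz
    rw [orbit_eq_iff.mpr hzc, A.cardC, A.in_card] at hle
    omega

/-- The graph of the action. -/
def graph (H : Type*) [Group H] [MulAction H V] (a b : V) : SimpleGraph V where
  Adj x y := x ≠ y ∧ (Rel H a b x y ∨ Rel H a b y x)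
  symm := ⟨fun _ _ h => ⟨h.1.symm, h.2.symm⟩⟩
  loopless := ⟨fun _ h => h.1 rfl⟩

theorem Act.adj_iff (A : Act H V a b c) {x y : V} :
    (graph H a b).Adj x y ↔ Rel H a b x y := by
  constructor
  · rintro ⟨-, h | h⟩
    exacts [h, A.rel_symm h]
  · intro h
    refine ⟨?_, Or.inl h⟩
    rintro rfl
    obtain ⟨g, h1, h2⟩ := h
    exact A.disjoint.1 ⟨1, (one_smul _ b).trans (MulAction.injective g (h2.trans h1.symm))⟩

theorem Act.srg (A : Act H V a b c) [DecidableRel (graph H a b).Adj] :
    (graph H a b).IsSRGWith 100 22 0 6 := by
  classical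
  have hV : Fintype.card V = 100 := by rw [← Nat.card_eq_fintype_card, A.card]
  have hreg : ∀ x, (graph H a b).degree x = 22 := by
    intro x
    rw [← A.out_card x, ← SimpleGraph.card_neighborSet_eq_degree, Set.ncard_eq_toFinset_card',
      Set.toFinset_card]
    refine Fintype.card_congr (Equiv.subtypeEquivRight fun y => ?_)
    exact A.adj_iff
  have hsm : ∀ (g : H) (x y : V), (graph H a b).Adj (g • x) (g • y) ↔ (graph H a b).Adj x y := fun g x y => by
    rw [A.adj_iff, A.adj_iff, rel_smul]
  have hcomm : ∀ (g : H) (x y : V),
      {z | (graph H a b).Adj (g • x) z ∧ (graph H a b).Adj (g • y) z}.ncard = {z | (graph H a b).Adj x z ∧ (graph H a b).Adj y z}.ncard :=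
    fun g x y => ncard_smul_set g fun z => by rw [hsm, hsm]
  set l := {z | (graph H a b).Adj a z ∧ (graph H a b).Adj b z}.ncard with hl
  set m := {z | (graph H a b).Adj a z ∧ (graph H a b).Adj c z}.ncard with hm
  have hadj : ∀ x y, (graph H a b).Adj x y → {z | (graph H a b).Adj x z ∧ (graph H a b).Adj y z}.ncard = l := by
    intro x y h
    obtain ⟨g, rfl, rfl⟩ := A.adj_iff.mp h
    exact hcomm g a b
  have hnadj : ∀ x y, x ≠ y → ¬ (graph H a b).Adj x y → {z | (graph H a b).Adj x z ∧ (graph H a b).Adj y z}.ncard = m := by
    intro x y hne h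
    obtain ⟨g, rfl⟩ := A.trans x
    obtain ⟨y, rfl⟩ : ∃ z, g • z = y := ⟨g⁻¹ • y, smul_inv_smul g y⟩
    rw [hcomm]
    rw [hsm, A.adj_iff, rel_base_iff] at h
    rcases A.cases y with rfl | hy | hy
    · exact absurd rfl hne
    · exact absurd hy h
    · obtain ⟨s, rfl⟩ := hy
      have e := hcomm (s : H) a c
      rw [mem_stabilizer_iff.mp s.2] at e
      exact e
  set B := (graph H a b).neighborFinset a with hB
  set C := (Finset.univ : Finset V).filter (fun y => y ≠ a ∧ ¬ (graph H a b).Adj a y) with hC
  have cB : B.card = 22 := by rw [hB, SimpleGraph.card_neighborFinset_eq_degree, hreg]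
  have cC : C.card = 77 := by
    have h1 : C = Finset.univ \ (insert a B) := by ext y; simp [hC, hB]
    rw [h1, Finset.card_sdiff_of_subset (Finset.subset_univ _), Finset.card_univ, hV,
      Finset.card_insert_of_notMem (by simp [hB]), cB]
  have hcount : 22 * 21 = 22 * l + 77 * m := by
    have h := Finset.sum_card_bipartiteAbove_eq_sum_card_bipartiteBelow (s := B) (t := C)
      (r := (graph H a b).Adj)
    have e1 : ∀ y ∈ B, (C.bipartiteAbove (graph H a b).Adj y).card + l = 21 := by
      intro y hy
      rw [hB, SimpleGraph.mem_neighborFinset] at hy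
      have hsplit : (graph H a b).neighborFinset y = insert a ((C.bipartiteAbove (graph H a b).Adj y) ∪
          (Finset.univ.filter fun z => (graph H a b).Adj a z ∧ (graph H a b).Adj y z)) := by
        ext z
        simp only [SimpleGraph.mem_neighborFinset, Finset.mem_insert, Finset.mem_union,
          Finset.bipartiteAbove, Finset.mem_filter, Finset.mem_univ, true_and, hC]
        by_cases hza : z = a
        · simp [hza, hy.symm]
        · by_cases h1 : (graph H a b).Adj a z <;> simp [hza, h1]
      have hd := hreg y
      rw [← SimpleGraph.card_neighborFinset_eq_degree, hsplit,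
        Finset.card_insert_of_notMem (by simp [hC, Finset.bipartiteAbove]),
        Finset.card_union_of_disjoint (by
          rw [Finset.disjoint_left]
          intro z hz hz'
          simp [hC, Finset.bipartiteAbove] at hz hz'
          exact hz.1.2 hz'.1)] at hd
      have hlc : (Finset.univ.filter fun z => (graph H a b).Adj a z ∧ (graph H a b).Adj y z).card = l := by
        rw [← hadj a y hy, Set.ncard_eq_toFinset_card']
        congr 1
        ext z; simp
      omega
    have e2 : ∀ z ∈ C, (B.bipartiteBelow (graph H a b).Adj z).card = m := by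
      intro z hz
      simp only [hC, Finset.mem_filter, Finset.mem_univ, true_and] at hz
      rw [← hnadj a z hz.1.symm hz.2, Set.ncard_eq_toFinset_card']
      congr 1
      ext y
      simp [hB, Finset.bipartiteBelow, (graph H a b).adj_comm z y]
    have h2 : ∑ y ∈ B, (C.bipartiteAbove (graph H a b).Adj y).card + B.card * l = B.card * 21 := by
      rw [← smul_eq_mul, ← Finset.sum_const, ← Finset.sum_add_distrib, Finset.sum_congr rfl e1,
        Finset.sum_const, smul_eq_mul]
    rw [h, Finset.sum_congr rfl e2, Finset.sum_const, smul_eq_mul, cB, cC] at h2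
    omega
  -- the number of directed triangles is a multiple of three
  have htri : 3 ∣ 100 * 22 * l := by
    let T := {t : V × V × V // (graph H a b).Adj t.1 t.2.1 ∧ (graph H a b).Adj t.2.1 t.2.2 ∧ (graph H a b).Adj t.2.2 t.1}
    have hT : Fintype.card T = 100 * 22 * l := by
      have e : ∀ x y : V, (∑ z : V, if (graph H a b).Adj x y ∧ (graph H a b).Adj y z ∧ (graph H a b).Adj z x then 1 else 0) =
          if (graph H a b).Adj x y then l else 0 := by
        intro x y
        by_cases h : (graph H a b).Adj x y
        · simp only [h, true_and, if_true]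
          rw [← Finset.card_filter, ← hadj x y h, Set.ncard_eq_toFinset_card']
          congr 1
          ext z
          simp [(graph H a b).adj_comm z x, and_comm]
        · simp [h]
      rw [Fintype.card_subtype, Finset.card_filter, Fintype.sum_prod_type]
      simp only [Fintype.sum_prod_type, e]
      have e' : ∀ x : V, (∑ y : V, if (graph H a b).Adj x y then l else 0) = 22 * l := by
        intro x
        rw [Finset.sum_ite, Finset.sum_const_zero, add_zero, Finset.sum_const, smul_eq_mul,
          ← hreg x, ← SimpleGraph.card_neighborFinset_eq_degree]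
        congr 2
        ext y; simp
      simp only [e', Finset.sum_const, Finset.card_univ, hV, smul_eq_mul]
      ring
    let f : Function.End T := fun t => ⟨(t.1.2.1, t.1.2.2, t.1.1), t.2.2.1, t.2.2.2, t.2.1⟩
    have hf : f ^ 3 ^ 1 = 1 := by
      funext t
      exact Subtype.ext rfl
    have hfix : IsEmpty (Function.fixedPoints f) := ⟨fun t => by
      have h := congrArg (fun s : T => s.1.1) t.2
      exact (graph H a b).ne_of_adj t.1.2.1 h.symm⟩
    haveI : Fact (Nat.Prime 3) := ⟨Nat.prime_three⟩
    have hmod := Equiv.Perm.card_fixedPoints_modEq (p := 3) (n := 1) hf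
    rw [hT, @Fintype.card_eq_zero _ _ hfix] at hmod
    exact Nat.modEq_zero_iff_dvd.mp hmod
  -- a disjoint union of complete graphs is impossible
  have h21 : l ≠ 21 := by
    intro hl21
    have hm0 : m = 0 := by omega
    have hclass : ∀ x y, (graph H a b).Adj x y →
        insert y ((graph H a b).neighborFinset y) = insert x ((graph H a b).neighborFinset x) := by
      intro x y h
      symm
      refine Finset.eq_of_subset_of_card_le (fun z hz => ?_) ?_
      · simp only [Finset.mem_insert, SimpleGraph.mem_neighborFinset] at hz ⊢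
        rcases hz with rfl | hz
        · exact Or.inr h.symm
        · by_contra hn
          simp only [not_or] at hn
          have := hnadj y z (Ne.symm hn.1) hn.2
          rw [hm0, Set.ncard_eq_zero] at this
          exact Set.eq_empty_iff_forall_notMem.mp this x ⟨h.symm, hz.symm⟩
      · rw [Finset.card_insert_of_notMem (by simp), Finset.card_insert_of_notMem (by simp),
          SimpleGraph.card_neighborFinset_eq_degree, SimpleGraph.card_neighborFinset_eq_degree,
          hreg, hreg]
    have hsum := Finset.card_eq_sum_card_image (fun x => insert x ((graph H a b).neighborFinset x))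
      (Finset.univ : Finset V)
    rw [Finset.sum_congr rfl (g := fun _ => 23) (fun S hS => by
      obtain ⟨x, -, rfl⟩ := Finset.mem_image.mp hS
      have : (Finset.univ.filter fun y => insert y ((graph H a b).neighborFinset y) =
          insert x ((graph H a b).neighborFinset x)) = insert x ((graph H a b).neighborFinset x) := by
        ext y
        simp only [Finset.mem_filter, Finset.mem_univ, true_and]
        constructor
        · intro e; rw [← e]; exact Finset.mem_insert_self _ _
        · intro hy
          simp only [Finset.mem_insert, SimpleGraph.mem_neighborFinset] at hy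
          rcases hy with rfl | hy
          · rfl
          · exact hclass x y hy
      rw [this, Finset.card_insert_of_notMem (by simp), SimpleGraph.card_neighborFinset_eq_degree,
        hreg]), Finset.sum_const, Finset.card_univ, hV, smul_eq_mul] at hsum
    omega
  have hl0 : l = 0 := by
    have : l ≤ 21 := by omega
    interval_cases l <;> omega
  have hm6 : m = 6 := by omega
  refine ⟨hV, hreg, fun x y h => ?_, fun x y hne h => ?_⟩
  · rw [← Nat.card_eq_fintype_card, Nat.card_coe_set_eq, ← hl0]
    exact hadj x y h
  · rw [← Nat.card_eq_fintype_card, Nat.card_coe_set_eq, ← hm6]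
    exact hnadj x y hne h

omit [Fintype V] [DecidableEq V] in
/-- The action as graph automorphisms. -/
def toAut (H : Type*) [Group H] [MulAction H V] (a b : V) :
    H →* (graph H a b ≃g graph H a b) where
  toFun g :=
    { toEquiv := MulAction.toPerm g
      map_rel_iff' := by
        intro x y
        simp [graph, rel_smul] }
  map_one' := RelIso.ext fun x => one_smul H x
  map_mul' g h := RelIso.ext fun x => mul_smul g h x

omit [Fintype V] [DecidableEq V] in
theorem toAut_injective [FaithfulSMul H V] (a b : V) : Function.Injective (toAut H a b) :=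
  fun g h e => FaithfulSMul.eq_of_smul_eq_smul fun x => DFunLike.congr_fun e x

/-- Conjugation of graph automorphisms. -/
def autCongr {V W : Type*} {Γ : SimpleGraph V} {Γ' : SimpleGraph W} (φ : Γ ≃g Γ') :
    (Γ ≃g Γ) ≃* (Γ' ≃g Γ') where
  toFun f := (φ.symm.trans f).trans φ
  invFun f := (φ.trans f).trans φ.symm
  left_inv f := RelIso.ext fun x => by simp
  right_inv f := RelIso.ext fun x => by simp
  map_mul' f g := RelIso.ext fun x => by simp

theorem Act.card_group (A : Act H V a b c) (hst : Nat.card (stabilizer H a) = 443520) :
    Nat.card H = 44352000 := by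
  haveI : IsPretransitive H V := (isPretransitive_iff_base a).mpr A.trans
  rw [← Subgroup.card_mul_index (stabilizer H a), index_stabilizer_of_transitive, hst, A.card]

/-- Uniqueness. -/
theorem nonempty_mulEquiv {H' V' : Type*} [Group H'] [MulAction H' V'] [Fintype V']
    [DecidableEq V'] [FaithfulSMul H V] [FaithfulSMul H' V'] [IsSimpleGroup H']
    {a' b' c' : V'} (A : Act H V a b c) (A' : Act H' V' a' b' c')
    (hst : Nat.card (stabilizer H a) = 443520) (hst' : Nat.card (stabilizer H' a') = 443520) :
    Nonempty (H ≃* H') := by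
  classical
  obtain ⟨hS, hc, φ, -⟩ := Graphs.reconstruct A.srg a
  obtain ⟨hS', hc', φ', -⟩ := Graphs.reconstruct A'.srg a'
  obtain ⟨ψ, -⟩ := Graphs.exists_pointBlockIso hS hc hS' hc'
  let e := autCongr ((φ.symm.trans ψ).trans φ')
  let Aut' := graph H' a' b' ≃g graph H' a' b'
  haveI : Finite Aut' :=
    Finite.of_injective (fun f : Aut' => (f : V' → V')) DFunLike.coe_injective
  have hA : Nat.card Aut' = 88704000 := by
    rw [← Graphs.card_aut_graph hS' hc']
    exact Nat.card_congr (autCongr φ').symm.toEquiv
  let f : H →* Aut' := e.toMonoidHom.comp (toAut H a b)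
  let f' : H' →* Aut' := toAut H' a' b'
  have hf : Function.Injective f := e.injective.comp (toAut_injective a b)
  have hf' : Function.Injective f' := toAut_injective a' b'
  have hc1 : Nat.card f.range = 44352000 := by
    rw [← Nat.card_congr (MonoidHom.ofInjective hf).toEquiv, A.card_group hst]
  have hc2 : Nat.card f'.range = 44352000 := by
    rw [← Nat.card_congr (MonoidHom.ofInjective hf').toEquiv, A'.card_group hst']
  have hi : f.range.index = 2 := by
    have := Subgroup.card_mul_index f.range
    rw [hc1, hA] at this
    omega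
  haveI : f.range.Normal := Subgroup.normal_of_index_eq_two hi
  haveI : Nontrivial f'.range := (MonoidHom.ofInjective hf').toEquiv.symm.nontrivial
  haveI : IsSimpleGroup f'.range :=
    IsSimpleGroup.isSimpleGroup_of_surjective f'.rangeRestrict f'.rangeRestrict_surjective
  have hle : f'.range ≤ f.range := by
    rcases (IsSimpleGroup.eq_bot_or_eq_top_of_normal (f.range.subgroupOf f'.range) inferInstance)
      with h | h
    · exfalso
      have h1 : (f.range.subgroupOf f'.range).index ∣ 2 := by
        rw [← hi]; exact Subgroup.relIndex_dvd_index_of_normal _ _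
      rw [h, Subgroup.index_bot, hc2] at h1
      exact absurd (Nat.le_of_dvd two_pos h1) (by norm_num)
    · exact Subgroup.subgroupOf_eq_top.mp h
  have heq : f'.range = f.range := Subgroup.eq_of_le_of_card_ge hle (by rw [hc1, hc2])
  exact ⟨((MonoidHom.ofInjective hf).trans (MulEquiv.subgroupCongr heq.symm)).trans
    (MonoidHom.ofInjective hf').symm⟩

end Cfsg.Agent.HSRank
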