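/-
Automorphisms of the Leech lattice given by short lists of steps, and the three forms of the
minimal vectors.
-/
import Cfsg.Agent.Leech.Transitive
import Cfsg.Agent.Leech.Monomial
import Cfsg.Agent.M24Geo.Code

set_option autoImplicit false

namespace Cfsg.Agent.LeechWord

open scoped Pointwise
open Cfsg Cfsg.Agent.Leech
open Cfsg.Agent.M24Geo (idx pt permOf autL inCode)

/-- A step: a permutation of the code, a change of signs on a code word, or the sextet involution. -/
inductive St
  | perm (l : List ℕ)
  | flip (m : ℕ)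
  | xi

/-- The map of a step. -/
def St.app : St → (GolayPt → ℤ) → GolayPt → ℤ
  | .perm l, x => fun p => x (M24Geo.funOf l p)
  | .flip m, x => fun p => bif m.testBit (idx p) then -x p else x p
  | .xi, x => Leech.xi x

/-- Admissibility of a step. -/
def St.ok : St → Bool
  | .perm l => autL l
  | .flip m => inCode m
  | .xi => true

/-- The vector given by 24 coordinates. -/
def ofL (l : List ℤ) : GolayPt → ℤ := fun p => l.getD (idx p) 0

/-- The coordinates of a vector. -/
def toL (x : GolayPt → ℤ) : List ℤ := (List.range 24).map fun i => x (pt i)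

theorem ofL_toL (x : GolayPt → ℤ) : ofL (toL x) = x := by
  funext p
  rw [ofL, toL, List.getD_eq_getElem _ _ (by simpa using M24Geo.idx_lt p)]
  simp [M24Geo.pt_idx]

/-- The action of a list of steps on coordinates. -/
def actW : List St → List ℤ → List ℤ
  | [], l => l
  | s :: W, l => actW W (toL (s.app (ofL l)))

/-- The composite map of a list of steps. -/
def appW : List St → (GolayPt → ℤ) → GolayPt → ℤ
  | [], x => x
  | s :: W, x => appW W (s.app x)

theorem appW_ofL : ∀ (W : List St) (l : List ℤ), appW W (ofL l) = ofL (actW W l)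
  | [], _ => rfl
  | s :: W, l => by rw [appW, actW, ← appW_ofL W, ofL_toL]

theorem exists_step {s : St} (h : s.ok = true) :
    ∃ g : Co0, ∀ v : leechLattice, (g • v).1 = s.app v.1 := by
  cases s with
  | perm l =>
    have hv : M24Geo.validL l = true := by
      simp only [St.ok, autL, Bool.and_eq_true] at h
      exact h.1
    refine ⟨toCo0 (isAut_comp (M24Geo.permOf_mem_M24 h)), fun v => funext fun p => ?_⟩
    show v.1 (permOf l p) = v.1 _
    rw [M24Geo.permOf_apply hv]
    rfl
  | flip m =>
    refine ⟨toCo0 (isAut_flipOn (M24Geo.mem_supports_iff.mpr ⟨m, h, rfl⟩)), fun v =>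
      funext fun p => ?_⟩
    show flipOn (M24Geo.ofMask m) v.1 p = _
    simp only [flipOn, St.app, M24Geo.mem_ofMask]
    cases m.testBit (idx p) <;> simp
  | xi => exact ⟨toCo0 isAut_xi, fun _ => rfl⟩

theorem exists_word : ∀ {W : List St}, W.all St.ok = true →
    ∃ g : Co0, ∀ v : leechLattice, (g • v).1 = appW W v.1
  | [], _ => ⟨1, fun v => by rw [one_smul]; rfl⟩
  | s :: W, h => by
    rw [List.all_cons, Bool.and_eq_true] at h
    obtain ⟨g, hg⟩ := exists_step h.1
    obtain ⟨g', hg'⟩ := exists_word h.2
    exact ⟨g' * g, fun v => by rw [mul_smul, hg', hg]; rfl⟩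

/-- A checked word carrying listed coordinates to listed coordinates. -/
theorem exists_of_certs {W : List St} (h : W.all St.ok = true) {l : List (List ℤ × List ℤ)}
    (hl : (l.all fun e => actW W e.1 == e.2) = true) :
    ∃ g : Co0, ∀ e ∈ l, ∀ v : leechLattice, v.1 = ofL e.1 → (g • v).1 = ofL e.2 := by
  obtain ⟨g, hg⟩ := exists_word h
  refine ⟨g, fun e he v hv => ?_⟩
  rw [hg, hv, appW_ofL, show actW W e.1 = e.2 by simpa using List.all_eq_true.mp hl e he]

/-- Composition with an element of the code group, as an automorphism of the lattice. -/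
def permEl {σ : Equiv.Perm GolayPt} (hσ : σ ∈ M24) : Co0 := toCo0 (isAut_comp hσ)

theorem permEl_smul {σ : Equiv.Perm GolayPt} (hσ : σ ∈ M24) (v : leechLattice) :
    (permEl hσ • v).1 = v.1 ∘ σ := rfl

/-! ### The vector with one 5 -/

/-- The vector `(5, 1²³)`. -/
def vecU5 : GolayPt → ℤ := fun p => if p = none then 5 else 1

theorem vecU5_eq_neg : vecU5 = -Spor.vecV := by
  funext p
  simp only [vecU5, Spor.vecV, Pi.neg_apply]
  split_ifs <;> norm_num

theorem vecU5_mem : vecU5 ∈ leechLattice := vecU5_eq_neg ▸ neg_mem vecV_mem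

/-- The vector `(5, 1²³)` in the lattice. -/
def U5 : leechLattice := ⟨vecU5, vecU5_mem⟩

theorem vecU5_comp {σ : Equiv.Perm GolayPt} (h : σ none = none) : vecU5 ∘ σ = vecU5 := by
  funext p
  have : σ p = none ↔ p = none := by
    constructor
    · intro e; exact σ.injective (e.trans h.symm)
    · rintro rfl; exact h
  simp [vecU5, this]

theorem exists_to_U5 (v : leechLattice) (hv : sqNorm (v : GolayPt → ℤ) = 48) :
    ∃ g : Co0, g • v = U5 := by
  have hU : sqNorm (U5 : GolayPt → ℤ) = 48 := by
    show sqNorm vecU5 = 48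
    decide +kernel
  exact exists_smul_eq_of_conj (conj48 v.2 hv) (conj48 U5.2 hU)

theorem dotInt_vecU5 (x : GolayPt → ℤ) : dotInt vecU5 x = 4 * x none + ∑ p, x p := by
  have h : ∀ p, vecU5 p * x p = (if p = none then 4 * x none else 0) + x p := fun p => by
    by_cases e : p = none
    · subst e; simp [vecU5]; ring
    · simp [vecU5, e]
  simp [dotInt, h, Finset.sum_add_distrib]

/-! ### The minimal vectors -/

/-- Twos on a set, negative on a subset. -/
def evenForm (o M : Finset GolayPt) : GolayPt → ℤ :=
  fun p => if p ∈ M then -2 else if p ∈ o then 2 else 0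

/-- One coordinate of absolute value 3, congruent to 3 modulo 4 exactly on `T`. -/
def oddForm (T : Finset GolayPt) (j : GolayPt) : GolayPt → ℤ :=
  fun p => if p ∈ T then (if p = j then 3 else -1) else (if p = j then -3 else 1)

theorem sum_evenForm {o M : Finset GolayPt} (h : M ⊆ o) :
    ∑ p, evenForm o M p = 2 * (o.card : ℤ) - 4 * M.card := by
  have e : ∀ p, evenForm o M p = (if p ∈ o then (2 : ℤ) else 0) + (if p ∈ M then -4 else 0) := by
    intro p
    by_cases hp : p ∈ M
    · simp [evenForm, hp, h hp]
    · simp [evenForm, hp]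
  simp [e, Finset.sum_add_distrib, Finset.sum_ite_mem]
  ring

theorem sum_oddForm (T : Finset GolayPt) (j : GolayPt) :
    ∑ p, oddForm T j p = (24 - 2 * (T.card : ℤ)) + if j ∈ T then 4 else -4 := by
  have e : ∀ p, oddForm T j p = 1 + (if p ∈ T then (-2 : ℤ) else 0) +
      (if p = j then (if j ∈ T then 4 else -4) else 0) := by
    intro p
    by_cases hp : p ∈ T <;> by_cases hj : p = j
    · subst hj; simp [oddForm, hp]
    · simp [oddForm, hp, hj]
    · subst hj; simp [oddForm, hp]
    · simp [oddForm, hp, hj]
  simp [e, Finset.sum_add_distrib, Finset.sum_ite_mem, card_golayPt]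
  ring

theorem evenForm_comp (o M : Finset GolayPt) (σ : Equiv.Perm GolayPt) :
    evenForm (σ • o) (σ • M) ∘ σ = evenForm o M := by
  funext p
  simp [evenForm, ← Equiv.Perm.smul_def, Finset.smul_mem_smul_finset_iff]

theorem oddForm_comp (T : Finset GolayPt) (j : GolayPt) (σ : Equiv.Perm GolayPt) :
    oddForm (σ • T) (σ j) ∘ σ = oddForm T j := by
  funext p
  simp [oddForm, ← Equiv.Perm.smul_def, Finset.smul_mem_smul_finset_iff]

/-- The three forms of the minimal vectors. -/
theorem minimal_cases {x : GolayPt → ℤ} (hx : x ∈ leechLattice) (hN : sqNorm x = 32) :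
    (∃ p q, p ≠ q ∧ (x p = 4 ∨ x p = -4) ∧ (x q = 4 ∨ x q = -4) ∧
      ∀ r, r ≠ p → r ≠ q → x r = 0) ∨
    (∃ o ∈ octads, ∃ M ⊆ o, x = evenForm o M) ∨
    ∃ T ∈ supports (golayCode : Set (GolayPt → ZMod 2)), ∃ j,
      (T.card = 0 ∨ T.card = 8 ∨ T.card = 12 ∨ T.card = 16 ∨ T.card = 24) ∧ x = oddForm T j := by
  classical
  rcases shape32 hx hN with ⟨-, e4, e0⟩ | ⟨he, e2, e0⟩ | ⟨ho, e3, e1⟩
  · left
    obtain ⟨p, q, hpq, hT⟩ := Finset.card_eq_two.mp e4
    have habs := abs_two (x := x) (show (4 : ℕ) ≠ 0 by norm_num) (by omega)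
    have key : ∀ r, (x r).natAbs = 4 ↔ r = p ∨ r = q := fun r => by
      rw [← mem_absSet, hT]; simp
    refine ⟨p, q, hpq, ?_, ?_, fun r hrp hrq => ?_⟩
    · have := (key p).mpr (Or.inl rfl); omega
    · have := (key q).mpr (Or.inr rfl); omega
    · rcases habs r with h | h
      · exact absurd ((key r).mp h) (by simp [hrp, hrq])
      · omega
  · right; left
    have habs := abs_two (x := x) (show (2 : ℕ) ≠ 0 by norm_num) (by omega)
    refine ⟨absSet x 2, ⟨absSet_two_support hx he (by omega) fun p => by
      rcases habs p with h | h <;> omega, e2⟩, (absSet x 2).filter fun p => x p < 0,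
      Finset.filter_subset _ _, funext fun p => ?_⟩
    simp only [evenForm, Finset.mem_filter, mem_absSet]
    rcases habs p with h | h <;> split_ifs <;> omega
  · right; right
    obtain ⟨j, hj⟩ := Finset.card_eq_one.mp e3
    have habs := abs_two (x := x) (show (3 : ℕ) ≠ 1 by norm_num) (by omega)
    obtain ⟨m, hm, hp, -, hw⟩ := exists_parity01 hx
    obtain rfl : m = 1 := by
      have := hp none; have := ho none
      simp only [Int.ModEq] at *
      rcases hm with rfl | rfl <;> omega
    refine ⟨support₂ (word x 1), ⟨_, hw, rfl⟩, j, ?_, funext fun p => ?_⟩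
    · rw [← Cfsg.Agent.Golay.hammingNorm_eq_card_support₂]
      exact Cfsg.Agent.Golay.golay_weights hw
    · have h3 : (x p).natAbs = 3 ↔ p = j := by rw [← mem_absSet, hj]; simp
      have hT : p ∈ support₂ (word x 1) ↔ x p % 4 = 3 := by
        rw [support₂_word x 1 hp, Finset.mem_filter]
        simp [Int.ModEq]
      have ho' := ho p
      simp only [oddForm, hT]
      by_cases hpj : p = j
      · have := h3.mpr hpj
        simp only [hpj, if_true] at *
        split_ifs <;> omega
      · have := (habs p).resolve_left fun e => hpj (h3.mp e)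
        simp only [hpj, if_false]
        split_ifs <;> omega

end Cfsg.Agent.LeechWord
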